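import Cfsg.Agent.Lib.Pres.Mod
import Cfsg.Agent.Lib.Pres.Frame

/-!
# A presentation of the Borel subgroup `q^{1+2} : (q² - 1)` on two generators
-/

set_option autoImplicit false

open scoped commutatorElement

namespace H77.Pres

open H40

/-- Evaluation on two generators. -/
abbrev e2 {J : Type*} [Group J] (u h : J) : FreeGroup (Fin 2) →* J := FreeGroup.lift ![u, h]
/-- First generator. -/
abbrev bu : FreeGroup (Fin 2) := FreeGroup.of 0
/-- Second generator. -/
abbrev bh : FreeGroup (Fin 2) := FreeGroup.of 1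

/-- The range of an additive map. -/
def IsAdd.range {K J : Type*} [AddCommGroup K] [Group J] {X : K → J} (h : IsAdd X) : Subgroup J where
  carrier := Set.range X
  one_mem' := ⟨0, h.zero⟩
  mul_mem' := by rintro _ _ ⟨a, rfl⟩ ⟨b, rfl⟩; exact ⟨a + b, h a b⟩
  inv_mem' := by rintro _ ⟨a, rfl⟩; exact ⟨-a, h.neg a⟩

/-- The subgroup used to centralise `z`. -/
def VV {J : Type*} [Group J] (n : ℕ) (u h : J) : Subgroup J :=
  Subgroup.closure ({x | ∃ i < 3, ∃ m, cj (h ^ n) (cj h u i) m = x} ∪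
    Set.range (cj h ⁅u, cj h u 1⁆))

theorem map_VV {J J' : Type*} [Group J] [Group J'] (φ : J →* J') (n : ℕ) (u h : J) :
    (VV n u h).map φ = VV n (φ u) (φ h) := by
  unfold VV
  rw [MonoidHom.map_closure, Set.image_union, ← Set.range_comp]
  congr 2
  · ext x
    constructor
    · rintro ⟨_, ⟨i, hi, m, rfl⟩, rfl⟩; exact ⟨i, hi, m, by simp [map_cj]⟩
    · rintro ⟨i, hi, m, rfl⟩; exact ⟨_, ⟨i, hi, m, rfl⟩, by simp [map_cj]⟩
  · congr 1; ext m; simp [map_cj]

theorem cj_add {J : Type*} [Group J] (t u : J) (a b : ℕ) : cj t (cj t u a) b = cj t u (a + b) := by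
  simp only [cj, add_comm a, pow_add]; group

theorem cj_pow {J : Type*} [Group J] (t u : J) (a b : ℕ) : cj (t ^ a) u b = cj t u (a * b) := by
  simp only [cj, pow_mul]

theorem pr_borel {B : Type*} [Group B] [Finite B] {K F : Type*} [Field K] [Finite K] [Field F]
    (p : ℕ) [Fact p.Prime] [CharP K p] (ι : K →+* F) {ν : K}
    (hν : ∀ a : K, a ≠ 0 → ∃ m : ℕ, ν ^ m = a) {ξ : F} {n1 n2 N : ℕ} (hN : 0 < N)
    (h1 : ξ ^ n1 = ι ν) (h2 : ν ^ n2 = 1) (hbasis : ∀ y : F, ∃ a b, y = ι a + ι b * ξ)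
    (hspan : ξ ^ 3 ∈ AddSubgroup.closure {x | ∃ i < 3, ∃ m, (ξ ^ n2) ^ m * ξ ^ i = x})
    (h : B) (zz : K → B) (U : F → B) (hz : IsAdd zz) (hzh : ∀ s, h * zz s * h⁻¹ = zz (ν * s))
    (hzu : ∀ a s, Commute (U a) (zz s)) (hU : ∀ a b, ∃ s, U (a + b) = U a * U b * zz s)
    (hUh : ∀ a, ∃ s, h * U a * h⁻¹ = U (ξ * a) * zz s) (hcomm : ⁅U 1, cj h (U 1) 1⁆ = zz 1)
    (hhN : h ^ N = 1) (hcard : Nat.card K ^ 3 * N ≤ Nat.card B)
    (hgen : ∀ g, ∃ a s, ∃ k : ℕ, g = U a * zz s * h ^ k) : Pr ![U 1, h] 15 := by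
  obtain ⟨M⟩ := exists_MD p hν
  obtain ⟨a0, b0, hab⟩ := hbasis (ξ ^ 2)
  -- the model modulo its centre
  have hZn : hz.range.Normal := by
    have c1 : ∀ k : ℕ, ∀ s, h ^ k * zz s * (h ^ k)⁻¹ = zz (ν ^ k * s) := fun k s =>
      cj_model hzh s k
    refine ⟨?_⟩
    rintro _ ⟨t, rfl⟩ g
    obtain ⟨a, s, k, rfl⟩ := hgen g
    refine ⟨ν ^ k * t, ?_⟩
    rw [show U a * zz s * h ^ k * zz t * (U a * zz s * h ^ k)⁻¹ =
      U a * (zz s * (h ^ k * zz t * (h ^ k)⁻¹) * (zz s)⁻¹) * (U a)⁻¹ by group, c1,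
      (hz.comm _ _).eq, mul_inv_cancel_right, (hzu _ _).eq, mul_inv_cancel_right]
  let μ := QuotientGroup.mk' hz.range
  have μz : ∀ s, μ (zz s) = 1 := fun s => (QuotientGroup.eq_one_iff _).2 ⟨s, rfl⟩
  have μk : ∀ g, μ g = 1 → ∃ s, zz s = g := fun g hg => (QuotientGroup.eq_one_iff _).1 hg
  have xa : IsAdd (fun a => μ (U a)) := fun a b => by
    obtain ⟨s, hs⟩ := hU a b
    simp only [hs, map_mul, μz, mul_one]
  have xh : ∀ a, μ h * μ (U a) * (μ h)⁻¹ = μ (U (ξ * a)) := fun a => by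
    obtain ⟨s, hs⟩ := hUh a
    rw [← map_inv, ← map_mul, ← map_mul, hs, map_mul, μz, mul_one]
  have xc : ∀ m a, cj (μ h) (μ (U a)) m = μ (U (ξ ^ m * a)) := fun m a =>
    cj_model (x := fun a => μ (U a)) xh a m
  have xK : ∀ c : F, IsAdd (fun a : K => μ (U (ι a * c))) := fun c a b => by
    simp only [map_add, add_mul, xa _ _]
  have xt : ∀ (c : F) (a : K), μ h ^ n1 * μ (U (ι a * c)) * (μ h ^ n1)⁻¹ =
      μ (U (ι (ν * a) * c)) := fun c a => by
    have := xc n1 (ι a * c)
    rw [cj] at this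
    rw [this, h1, map_mul, mul_assoc]
  have xX : ∀ (c : F) (a : K), M.X (μ h ^ n1) (μ (U c)) a = μ (U (ι a * c)) := fun c a => by
    have := M.X_model (xK c) (xt c) a
    rwa [map_one, one_mul] at this
  have zX : ∀ s, M.X h ⁅U 1, cj h (U 1) 1⁆ s = zz s := fun s => by
    rw [hcomm]; exact M.X_model hz hzh s
  -- the word for `u₃`
  have hV : cj h (U 1) 3 ∈ VV n2 (U 1) h := by
    have hzV : ∀ s, zz s ∈ VV n2 (U 1) h := fun s => by
      rw [← zX]
      refine M.X_mem (fun m => Subgroup.subset_closure ?_) s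
      exact Set.mem_union_right _ (Set.mem_range_self m)
    have key : ∀ a ∈ AddSubgroup.closure {x | ∃ i < 3, ∃ m, (ξ ^ n2) ^ m * ξ ^ i = x},
        μ (U a) ∈ (VV n2 (U 1) h).map μ := by
      intro a ha
      induction ha using AddSubgroup.closure_induction with
      | mem a ha =>
        obtain ⟨i, hi, m, rfl⟩ := ha
        refine ⟨_, Subgroup.subset_closure (Or.inl ⟨i, hi, m, rfl⟩), ?_⟩
        rw [cj_pow, cj_add, map_cj, xc, mul_one, pow_add, pow_mul, mul_comm]
      | zero => rw [xa.zero]; exact one_mem _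
      | add a b _ _ ha hb =>
        rw [show μ (U (a + b)) = μ (U a) * μ (U b) from xa a b]; exact mul_mem ha hb
      | neg a _ ha => rw [xa.neg]; exact inv_mem ha
    obtain ⟨v, hv, e⟩ := key _ hspan
    obtain ⟨s, hs⟩ := μk (v⁻¹ * cj h (U 1) 3) (by rw [map_mul, map_inv, e, map_cj, xc]; simp)
    have := mul_mem hv (hzV s)
    rwa [hs, mul_inv_cancel_left] at this
  obtain ⟨v, hv1, hv2⟩ : cj h (U 1) 3 ∈ (VV n2 bu bh).map (e2 (U 1) h) := by
    rw [map_VV]; simpa using hV
  -- relators modulo the centre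
  let L : List (FreeGroup (Fin 2)) := M.rel (bh ^ n1) bu ++
    [⁅bu, cj (bh ^ n1) (cj bh bu 1) 1⁆,
      cj bh bu 2 * (M.X (bh ^ n1) bu a0 * M.X (bh ^ n1) (cj bh bu 1) b0)⁻¹]
  have hL : ∀ r, ∃ s, r ∈ L → e2 (U 1) h r = zz s := fun r => by
    by_cases hr : r ∈ L
    · suffices μ (e2 (U 1) h r) = 1 by
        obtain ⟨s, hs⟩ := μk _ this
        exact ⟨s, fun _ => hs.symm⟩
      revert r
      simp only [L, List.forall_mem_append, List.forall_mem_cons, List.not_mem_nil,
        IsEmpty.forall_iff, implies_true, and_true]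
      refine ⟨?_, ?_, ?_⟩
      · refine (M.forall_rel (μ.comp (e2 (U 1) h)) _ _).2 ?_
        have := M.rel_model (xK 1) (xt 1)
        simpa using this
      · simp only [map_commutatorElement, map_cj, map_pow, FreeGroup.lift_apply_of,
          Matrix.cons_val, cj_pow, cj_add, xc]
        exact (xa.comm _ _).commutator_eq
      · simp only [map_mul, map_inv, map_cj, map_pow, M.map_X, FreeGroup.lift_apply_of,
          Matrix.cons_val, xc, xX, mul_one, pow_one]
        rw [← xa, hab, mul_inv_cancel]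
    · exact ⟨0, fun h => absurd h hr⟩
  choose σ hσ using hL
  let z : FreeGroup (Fin 2) := ⁅bu, cj bh bu 1⁆
  have hgenB : Subgroup.closure (Set.range ![U 1, h]) = ⊤ := by
    rw [eq_top_iff]; intro g _
    set H := Subgroup.closure (Set.range ![U 1, h])
    have m1 : U 1 ∈ H := Subgroup.subset_closure ⟨0, rfl⟩
    have m2 : h ∈ H := Subgroup.subset_closure ⟨1, rfl⟩
    have m3 : ∀ {t u : B}, t ∈ H → u ∈ H → ∀ m, cj t u m ∈ H := fun ht hu m =>
      mul_mem (mul_mem (pow_mem ht _) hu) (inv_mem (pow_mem ht _))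
    have m4 : ∀ s, zz s ∈ H := fun s => by
      rw [← zX]
      exact M.X_mem (m3 m2 (Subgroup.commutator_le_self H
        (Subgroup.commutator_mem_commutator m1 (m3 m2 m1 1)))) s
    obtain ⟨a, s, k, rfl⟩ := hgen g
    refine mul_mem (mul_mem ?_ (m4 s)) (pow_mem m2 k)
    obtain ⟨b, c, rfl⟩ := hbasis a
    obtain ⟨s, hs⟩ := μk ((M.X (h ^ n1) (U 1) b * M.X (h ^ n1) (cj h (U 1) 1) c)⁻¹ *
      U (ι b + ι c * ξ)) (by
        simp only [map_mul, map_inv, M.map_X, map_pow, map_cj, xc, xX, mul_one, pow_one]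
        rw [← xa, inv_mul_cancel])
    have := mul_mem (mul_mem (M.X_mem (m3 (pow_mem m2 n1) m1) b)
      (M.X_mem (m3 (pow_mem m2 n1) (m3 m2 m1 1)) c)) (m4 s)
    rwa [hs, mul_inv_cancel_left] at this
  have := Pr.of_univ ![U 1, h] (M.rel bh z ++ [⁅z, bu⁆, ⁅z, cj bh bu 1⁆, ⁅z, cj bh bu 2⁆,
    cj bh bu 3 * v⁻¹, bh ^ N] ++ L.map (fun r => r * (M.X bh z (σ r))⁻¹)) ?_ ?_ ?_
  · exact this.mono (by simp [L, MD.rel])
  · exact hgenB
  · have cz : ∀ m, Commute (zz 1) (cj h (U 1) m) := fun m => by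
      obtain ⟨s, hs⟩ := μk ((U (ξ ^ m * 1))⁻¹ * cj h (U 1) m) (by
        rw [map_mul, map_inv, map_cj, xc]; simp)
      rw [eq_inv_mul_iff_mul_eq] at hs
      rw [← hs]
      exact (hzu _ _).symm.mul_right (hz.comm _ _)
    simp only [List.forall_mem_append, List.forall_mem_cons, List.forall_mem_map, List.not_mem_nil,
      IsEmpty.forall_iff, implies_true, and_true, map_commutatorElement, map_mul, map_inv, map_cj,
      map_pow, z, M.map_X, FreeGroup.lift_apply_of, Matrix.cons_val, hcomm, mul_inv_eq_one,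
      commutatorElement_eq_one_iff_commute]
    refine ⟨⟨?_, by simpa using cz 0, cz 1, cz 2, hv2.symm, hhN⟩, fun r hr => ?_⟩
    · rw [M.forall_rel]
      simpa [map_cj, hcomm] using M.rel_model hz hzh
    · rw [M.X_model hz hzh]; exact hσ r hr
  · intro J _ j π hπ hgenJ hr
    have hsurj := surj_of_closure π _ j hπ hgenB
    obtain ⟨u, t, rfl⟩ : ∃ u t, j = ![u, t] := ⟨j 0, j 1, by ext i; fin_cases i <;> rfl⟩
    simp only [List.forall_mem_append, List.forall_mem_cons, List.forall_mem_map, List.not_mem_nil,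
      IsEmpty.forall_iff, implies_true, and_true, map_commutatorElement, map_mul, map_inv, map_cj,
      map_pow, z, M.map_X, FreeGroup.lift_apply_of, Matrix.cons_val, mul_inv_eq_one,
      commutatorElement_eq_one_iff_commute] at hr
    obtain ⟨⟨r0, r1, r2, r3, r4, r5⟩, r6⟩ := hr
    rw [M.forall_rel] at r0
    simp only [map_commutatorElement, map_cj, FreeGroup.lift_apply_of, Matrix.cons_val] at r0
    have hv3 : cj t u 3 ∈ VV n2 u t := by
      have := Subgroup.mem_map_of_mem (e2 u t) hv1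
      rw [map_VV] at this
      rw [r4]; simpa using this
    unfold VV at hv3
    generalize hy : ⁅u, cj t u 1⁆ = y at *
    obtain ⟨z1, z2, z3⟩ := M.of_rel r0
    generalize M.X t y = Z at *
    have z4 : ∀ m s, cj t (Z s) m = Z (ν ^ m * s) := fun m s => cj_model z2 s m
    subst z3
    -- centrality
    have c1 : ∀ i, Commute (Z 1) (cj t u i) := by
      set V := Subgroup.closure ({x | ∃ i < 3, ∃ m, cj (t ^ n2) (cj t u i) m = x} ∪
        Set.range (cj t (Z 1))) with hVdef
      have k1 : Commute (Z 1) (t ^ n2) := by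
        have := z4 n2 1
        rw [h2, mul_one, cj, mul_inv_eq_iff_eq_mul] at this
        exact this.symm
      have hV1 : V ≤ Subgroup.centralizer {Z 1} := by
        rw [Subgroup.closure_le]
        rintro _ (⟨i, hi, m, rfl⟩ | ⟨m, rfl⟩)
        · refine Subgroup.mem_centralizer_singleton_iff.2 (Commute.symm ?_)
          have : Commute (Z 1) (cj t u i) := by
            interval_cases i
            · simpa using r1
            · exact r2
            · exact r3
          exact ((k1.pow_right m).mul_right this).mul_right (k1.pow_right m).inv_right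
        · rw [z4]; exact Subgroup.mem_centralizer_singleton_iff.2 (z1.comm _ _)
      have hV3 : ∀ x ∈ V, t ^ n2 * x * (t ^ n2)⁻¹ ∈ V := conj_mem_of_closure' _ _ _ (by
        rintro _ (⟨i, hi, m, rfl⟩ | ⟨m, rfl⟩)
        · exact Subgroup.subset_closure (Or.inl ⟨i, hi, m + 1, (cj_succ _ _ _).symm⟩)
        · exact Subgroup.subset_closure (Or.inr ⟨m + n2, (cj_add _ _ _ _).symm⟩))
      have hV4 : ∀ x ∈ V, ∀ m, cj (t ^ n2) x m ∈ V := fun x hx m => by
        induction m with
        | zero => simpa using hx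
        | succ m ih => rw [← cj_succ]; exact hV3 _ ih
      have hV5 : ∀ i < 4, cj t u i ∈ V := fun i hi => by
        rcases (Nat.lt_succ_iff.1 hi).lt_or_eq with h | rfl
        · exact Subgroup.subset_closure (Or.inl ⟨i, h, 0, cj_zero _ _⟩)
        · exact hv3
      have hV2 : ∀ x ∈ V, t * x * t⁻¹ ∈ V := conj_mem_of_closure' _ _ _ (by
        rintro _ (⟨i, hi, m, rfl⟩ | ⟨m, rfl⟩)
        · rw [conj_cj, cj_succ, ((Commute.refl t).pow_right n2).eq, mul_inv_cancel_right]
          exact hV4 _ (hV5 _ (by omega)) m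
        · exact Subgroup.subset_closure (Or.inr ⟨m + 1, (cj_succ _ _ _).symm⟩))
      intro i
      have : cj t u i ∈ V := by
        induction i with
        | zero => exact hV5 0 (by omega)
        | succ i ih => rw [← cj_succ]; exact hV2 _ ih
      exact (Subgroup.mem_centralizer_singleton_iff.1 (hV1 this)).symm
    have c2 : ∀ s, Commute u (Z s) := by
      refine z1.commute M.span ?_
      rintro _ ⟨m, -, rfl⟩
      have := (c1 (m * (N - 1))).map (MulAut.conj (t ^ m))
      rw [MulAut.conj_apply, MulAut.conj_apply, ← cj, ← cj, z4, cj_add, mul_one,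
        show m * (N - 1) + m = N * m by
          obtain ⟨N, rfl⟩ : ∃ k, N = k + 1 := ⟨N - 1, by omega⟩
          simp; ring, ← cj_pow, r5] at this
      simpa [cj] using this.symm
    have top : ∀ H : Subgroup J, u ∈ H → t ∈ H → H = ⊤ := fun H a b => by
      rw [eq_top_iff, ← hgenJ, Subgroup.closure_le]
      rintro _ ⟨i, rfl⟩
      fin_cases i <;> assumption
    have hfin : Finite z1.range := Set.finite_range Z
    have hZn' : z1.range.Normal := by
      refine normal_of_gens _ _ hgenJ ?_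
      rintro _ ⟨i, rfl⟩ _ ⟨s, rfl⟩
      fin_cases i
      · exact ⟨s, by simp [(c2 s).eq]⟩
      · exact ⟨_, (z2 s).symm⟩
    let ρ := QuotientGroup.mk' z1.range
    have ρz : ∀ s, ρ (Z s) = 1 := fun s => (QuotientGroup.eq_one_iff _).2 ⟨s, rfl⟩
    have r7 : ∀ r ∈ L, ρ (e2 u t r) = 1 := fun r hr => by rw [r6 r hr, ρz]
    simp only [L, List.forall_mem_append, List.forall_mem_cons, List.not_mem_nil,
      IsEmpty.forall_iff, implies_true, and_true] at r7
    obtain ⟨s1, s2, s3⟩ := r7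
    replace s1 := (M.forall_rel (ρ.comp (e2 u t)) _ _).1 s1
    simp only [map_mul, map_inv, map_cj, map_pow, M.map_X, FreeGroup.lift_apply_of,
      Matrix.cons_val, MonoidHom.comp_apply, map_commutatorElement, mul_inv_eq_one,
      commutatorElement_eq_one_iff_commute] at s1 s2 s3
    have s0 : Commute (ρ u) (cj (ρ t) (ρ u) 1) := by
      rw [← commutatorElement_eq_one_iff_commute, ← map_cj, ← map_commutatorElement, hy, ρz]
    have ρN : ρ t ^ N = 1 := by rw [← map_pow, r5, map_one]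
    have topq : ∀ H : Subgroup (J ⧸ z1.range), ρ u ∈ H → ρ t ∈ H → H = ⊤ := fun H a b => by
      have := top (H.comap ρ) a b
      rw [eq_top_iff]; intro g _
      obtain ⟨g, rfl⟩ := QuotientGroup.mk'_surjective _ g
      have hg : g ∈ H.comap ρ := this ▸ Subgroup.mem_top g
      exact hg
    generalize ρ u = x at *
    generalize ρ t = g at *
    have gt : g * g ^ n1 * g⁻¹ = g ^ n1 := by group
    have hc : ∀ (w : J ⧸ z1.range) a, g * M.X (g ^ n1) w a * g⁻¹ = M.X (g ^ n1) (cj g w 1) a :=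
      fun w a => by
        have := M.map_X (MulAut.conj g).toMonoidHom (g ^ n1) w a
        simpa [gt, cj] using this
    have s1' : ∀ r ∈ M.rel (g ^ n1) (cj g x 1), r = 1 := by
      have := (M.forall_rel (MulAut.conj g).toMonoidHom (g ^ n1) x).1
        (fun r hr => by rw [s1 r hr, map_one])
      simpa [gt, cj] using this
    obtain ⟨x1, x2, x3⟩ := M.of_rel s1
    obtain ⟨y1, y2, y3⟩ := M.of_rel s1'
    have xy := M.comm2 s1 s1' s0 s2
    have hc1 := hc x
    have hc2 := hc (cj g x 1)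
    rw [cj_add] at hc2
    have hc3 : ∀ m, m < M.d → M.X (g ^ n1) (cj g x (1 + 1)) (ν ^ m) = cj (g ^ n1) (cj g x 2) m :=
      fun m hm => M.wd_pow_lt _ (fun m _ => by
        have e := s1 _ List.mem_cons_self
        rw [cj, cj, conj_pow, conj_pow, e]; simp) hm
    generalize M.X (g ^ n1) x = X at *
    generalize M.X (g ^ n1) (cj g x 1) = Y at *
    let W : Subgroup (J ⧸ z1.range) :=
      { carrier := {w | ∃ a b, w = X a * Y b}
        one_mem' := ⟨0, 0, by simp [x1.zero, y1.zero]⟩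
        mul_mem' := by
          rintro _ _ ⟨a, b, rfl⟩ ⟨c, d, rfl⟩
          refine ⟨a + c, b + d, ?_⟩
          rw [x1, y1, mul_assoc, ← mul_assoc (Y b), ← (xy c b).eq]; group
        inv_mem' := by
          rintro _ ⟨a, b, rfl⟩
          exact ⟨-a, -b, by rw [x1.neg, y1.neg, ← mul_inv_rev, (xy a b).eq]⟩ }
    have hW : ∀ w ∈ W, g * w * g⁻¹ ∈ W := by
      rintro _ ⟨a, b, rfl⟩
      have e1 : g * X a * g⁻¹ ∈ W := ⟨0, a, by rw [hc1, x1.zero, one_mul]⟩
      have e2 : g * Y b * g⁻¹ ∈ W := by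
        refine (y1.conj g).ind M.span W ?_ b
        rintro _ ⟨m, hm, rfl⟩
        rw [hc2, hc3 m hm, s3]
        refine ⟨ν ^ m * a0, ν ^ m * b0, ?_⟩
        rw [← cj_model x2, ← cj_model y2]; simp only [cj]; group
      simpa [mul_assoc] using mul_mem e1 e2
    have hW' : ∀ k : ℕ, ∀ w ∈ W, g ^ k * w * (g ^ k)⁻¹ ∈ W := fun k w hw => by
      induction k with
      | zero => simpa using hw
      | succ k ih => simpa [pow_succ', mul_assoc] using hW _ ih
    have hfinW : Finite W := by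
      refine Finite.of_surjective (fun a : K × K => (⟨X a.1 * Y a.2, a.1, a.2, rfl⟩ : W)) ?_
      rintro ⟨_, a, b, rfl⟩; exact ⟨(a, b), rfl⟩
    have hcW : Nat.card W ≤ Nat.card K ^ 2 := by
      rw [sq, ← Nat.card_prod]
      refine Nat.card_le_card_of_surjective
        (fun a : K × K => (⟨X a.1 * Y a.2, a.1, a.2, rfl⟩ : W)) ?_
      rintro ⟨_, a, b, rfl⟩; exact ⟨(a, b), rfl⟩
    have xW : x ∈ W := ⟨1, 0, by rw [x3, y1.zero, mul_one]⟩
    have hWn : W.Normal := by
      refine normal_of_gens W {x, g} (topq _ (Subgroup.subset_closure (by simp))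
        (Subgroup.subset_closure (by simp))) ?_
      rintro _ (rfl | rfl) w hw
      · exact mul_mem (mul_mem xW hw) (inv_mem xW)
      · exact hW w hw
    obtain ⟨f1, f2⟩ := card_le_of_normal_cyclic W g N hN (ρN ▸ one_mem _)
      (topq _ (Subgroup.mem_sup_left xW) (Subgroup.mem_sup_right (Subgroup.mem_zpowers g)))
    have hcZ : Nat.card z1.range ≤ Nat.card K :=
      Nat.card_le_card_of_surjective (fun s => (⟨Z s, s, rfl⟩ : z1.range))
        (by rintro ⟨_, s, rfl⟩; exact ⟨s, rfl⟩)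
    have : Finite J := Finite.of_equiv _ (Subgroup.groupEquivQuotientProdSubgroup (s := z1.range)).symm
    refine inj_of_card_le π hsurj (le_trans ?_ hcard)
    rw [Subgroup.card_eq_card_quotient_mul_card_subgroup z1.range]
    calc _ ≤ N * Nat.card K ^ 2 * Nat.card K :=
          Nat.mul_le_mul (f2.trans (Nat.mul_le_mul_left _ hcW)) hcZ
      _ = _ := by ring

end H77.Pres
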