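import Cfsg.Agent.Lib.Pres.SLn

/-!
# Four relators for a one-dimensional module, and the two-variable Baumslag trick
-/

set_option autoImplicit false

open scoped commutatorElement

namespace H77.Pres

/-- The two-variable Baumslag trick. -/
theorem baumslag2 {J : Type*} [Group J] {s t x y : J} (hst : Commute s t)
    (hx : s * x * s⁻¹ = x * cj t x 1) (hy : s * y * s⁻¹ = y * cj t y 1)
    (h0 : Commute x y) (h1 : Commute x (cj t y 1)) (a b : ℕ) :
    Commute (cj t x a) (cj t y b) := by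
  have hs : ∀ {u : J}, s * u * s⁻¹ = u * cj t u 1 →
      ∀ m, MulAut.conj s (cj t u m) = cj t u m * cj t u (m + 1) := fun {u} h2 m => by
    rw [MulAut.conj_apply, conj_cj, h2, hst.eq, mul_inv_cancel_right]
    simp only [cj, pow_succ, pow_zero, one_mul]; group
  have sh : ∀ {a b : ℕ} (k : ℕ), Commute (cj t x a) (cj t y b) →
      Commute (cj t x (a + k)) (cj t y (b + k)) := fun {a b} k h => by
    induction k with
    | zero => exact h
    | succ k ih =>
      rw [← add_assoc, ← add_assoc, ← cj_succ, ← cj_succ]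
      exact ih.map (MulAut.conj t)
  have cs : ∀ {a b : ℕ}, Commute (cj t x a) (cj t y b) →
      Commute (cj t x a * cj t x (a + 1)) (cj t y b * cj t y (b + 1)) := fun {a b} h => by
    have := h.map (MulAut.conj s)
    rwa [hs hx, hs hy] at this
  have c1 : ∀ {a b c : J}, Commute (a * b) c → Commute b c → Commute a c := fun h h' => by
    simpa using h.mul_left h'.inv_left
  have c2 : ∀ {a b c : J}, Commute (a * b) c → Commute a c → Commute b c := fun h h' => by
    simpa using h'.inv_left.mul_left h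
  have h00 : Commute (cj t x 0) (cj t y 0) := by simpa using h0
  have h01 : Commute (cj t x 0) (cj t y 1) := by simpa using h1
  have h10 : Commute (cj t x 1) (cj t y 0) :=
    (c1 (c2 (cs h00) (h00.mul_right h01)).symm (sh 1 h00).symm).symm
  have key : ∀ n, (Commute (cj t x 0) (cj t y n) ∧ Commute (cj t x n) (cj t y 0)) ∧
      Commute (cj t x 0) (cj t y (n + 1)) ∧ Commute (cj t x (n + 1)) (cj t y 0) := by
    intro n
    induction n with
    | zero => exact ⟨⟨h00, h00⟩, h01, h10⟩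
    | succ n ih =>
      obtain ⟨⟨a1, a2⟩, a3, a4⟩ := ih
      refine ⟨⟨a3, a4⟩, ?_, ?_⟩
      · exact (c2 (c1 (cs a3) ((sh 1 a1).mul_right (sh 1 a3))).symm a3.symm).symm
      · exact c2 (c1 (cs a4).symm ((sh 1 a2).symm.mul_right (sh 1 a4).symm)).symm a4
  rcases le_total a b with h | h
  · have := sh a (key (b - a)).1.1
    rwa [zero_add, Nat.sub_add_cancel h] at this
  · have := sh b (key (a - b)).1.2
    rwa [zero_add, Nat.sub_add_cancel h] at this

/-- Data for the module relators. -/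
structure MD (p : ℕ) {K : Type*} [Field K] (ν : K) extends LD p ν where
  /-- exponent with `1 + ν = ν ^ l` -/
  l : ℕ
  /-- switch -/
  ε : ℕ
  h : (ε = 0 ∧ d ≤ 1) ∨ (ε = 1 ∧ 1 + ν = ν ^ l)

theorem exists_MD (p : ℕ) [Fact p.Prime] {K : Type*} [Field K] [Finite K] [CharP K p] {ν : K}
    (hν : ∀ a : K, a ≠ 0 → ∃ m : ℕ, ν ^ m = a) : Nonempty (MD p ν) := by
  obtain ⟨D⟩ := exists_LD p ν (subring_top_of_prim hν)
  by_cases h : 1 + ν = 0
  · refine ⟨⟨D, 0, 0, Or.inl ⟨rfl, ?_⟩⟩⟩
    have hν' : ν = -1 := by linear_combination h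
    by_contra hd
    have h2 := (Fact.out : p.Prime).two_le
    have h4 : 2 ^ 2 ≤ p ^ D.d :=
      (Nat.pow_le_pow_left h2 2).trans (Nat.pow_le_pow_right (by omega) (by omega))
    rw [← D.card] at h4
    have : (Set.univ : Set K) ⊆ {0, 1, -1} := fun a _ => by
      by_cases ha : a = 0
      · exact Or.inl ha
      · obtain ⟨m, rfl⟩ := hν a ha
        rw [hν']
        exact Or.inr (neg_one_pow_eq_or K m)
    have h5 := Set.ncard_le_ncard this
    rw [Set.ncard_univ] at h5
    have h6 := Set.ncard_insert_le (0 : K) {1, -1}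
    have h7 := Set.ncard_insert_le (1 : K) {-1}
    rw [Set.ncard_singleton] at h7
    omega
  · obtain ⟨l, hl⟩ := hν _ h
    exact ⟨⟨D, l, 1, Or.inr ⟨rfl, hl.symm⟩⟩⟩

namespace MD

variable {p : ℕ} {K : Type*} [Field K] {ν : K} (M : MD p ν) {J : Type*} [Group J]

/-- The four relators. -/
def rel (t z : J) : List J :=
  [z ^ p, ⁅z, cj t z 1⁆, (cj t z M.l * (z * cj t z 1)⁻¹) ^ M.ε,
    cj t z M.d * (M.wd (cj t z) (ν ^ M.d))⁻¹]

/-- The words. -/
def X (t z : J) (a : K) : J := M.wd (cj t z) a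

theorem map_X {J' : Type*} [Group J'] (φ : J →* J') (t z : J) (a : K) :
    φ (M.X t z a) = M.X (φ t) (φ z) a := map_wd_cj M.toLD φ t z a

theorem map_rel {J' : Type*} [Group J'] (φ : J →* J') (t z : J) :
    (M.rel t z).map φ = M.rel (φ t) (φ z) := by
  simp [rel, map_cj, map_wd_cj]

theorem forall_rel {J' : Type*} [Group J'] (φ : J →* J') (t z : J) :
    (∀ r ∈ M.rel t z, φ r = 1) ↔ ∀ r ∈ M.rel (φ t) (φ z), r = 1 := by
  rw [← map_rel, List.forall_mem_map]

theorem X_mem {H : Subgroup J} {t z : J} (h : ∀ m, cj t z m ∈ H) (a : K) : M.X t z a ∈ H :=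
  M.wd_mem (fun m _ => h m) a

theorem X_model {x : K → J} (hx : IsAdd x) {t : J} (ht : ∀ a, t * x a * t⁻¹ = x (ν * a)) (a : K) :
    M.X t (x 1) a = x a :=
  M.wd_model hx (fun m _ => by rw [cj_model ht, mul_one]) a

theorem rel_model [CharP K p] {x : K → J} (hx : IsAdd x) {t : J}
    (ht : ∀ a, t * x a * t⁻¹ = x (ν * a)) : ∀ r ∈ M.rel t (x 1), r = 1 := by
  have hX := M.X_model hx ht
  simp only [rel, List.forall_mem_cons, cj_model ht, mul_one, List.not_mem_nil,
    IsEmpty.forall_iff, implies_true, and_true]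
  refine ⟨?_, (hx.comm _ _).commutator_eq, ?_, ?_⟩
  · rw [← hx.nsmul]; simpa using hx.zero
  · rcases M.h with ⟨h, -⟩ | ⟨-, h⟩
    · rw [h, pow_zero]
    · rw [← hx, pow_one, h, mul_inv_cancel, one_pow]
  · rw [mul_inv_eq_one]; exact (hX _).symm

variable [NeZero p]

theorem of_rel {t z : J} (h : ∀ r ∈ M.rel t z, r = 1) :
    IsAdd (M.X t z) ∧ (∀ a, t * M.X t z a * t⁻¹ = M.X t z (ν * a)) ∧ M.X t z 1 = z := by
  simp only [rel, List.forall_mem_cons, commutatorElement_eq_one_iff_commute,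
    mul_inv_eq_one] at h
  obtain ⟨r1, r2, r3, r4, -⟩ := h
  obtain ⟨a1, a2, a3⟩ := M.main_cj (t := t) (u := z) (fun a ha b hb => by
    rcases M.h with ⟨-, h⟩ | ⟨h, -⟩
    · rw [show a = b by omega]
    · rw [h, pow_one, mul_inv_eq_one] at r3
      exact baumslag (s := t ^ M.l) ((Commute.refl t).pow_left _) r2 r3 a b) r1 r4
  exact ⟨a1, a2, by simpa [X] using a3 0⟩

theorem comm2 {t x y : J} (hx : ∀ r ∈ M.rel t x, r = 1) (hy : ∀ r ∈ M.rel t y, r = 1)
    (h0 : Commute x y) (h1 : Commute x (cj t y 1)) (a b : K) :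
    Commute (M.X t x a) (M.X t y b) := by
  obtain ⟨a1, a2, a3⟩ := M.of_rel hx
  obtain ⟨b1, b2, b3⟩ := M.of_rel hy
  refine b1.commute M.span ?_ b
  rintro _ ⟨j, hj, rfl⟩
  refine (a1.commute M.span ?_ a).symm
  rintro _ ⟨i, hi, rfl⟩
  have e1 := cj_model a2 1 i
  have e2 := cj_model b2 1 j
  rw [mul_one] at e1 e2
  rw [← e1, ← e2, a3, b3]
  rcases M.h with ⟨-, h⟩ | ⟨h, -⟩
  · rw [show i = 0 by omega, show j = 0 by omega]; simpa using h0.symm
  · have r3 := hx _ (List.mem_cons_of_mem _ (List.mem_cons_of_mem _ List.mem_cons_self))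
    have r4 := hy _ (List.mem_cons_of_mem _ (List.mem_cons_of_mem _ List.mem_cons_self))
    rw [h, pow_one, mul_inv_eq_one] at r3 r4
    exact (baumslag2 (s := t ^ M.l) ((Commute.refl t).pow_left _) r3 r4 h0 h1 i j).symm

end MD

end H77.Pres
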