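import Cfsg.Agent.Lib.Pres.Basic

/-!
# Presentations of rank one groups over a Borel subgroup
-/

set_option autoImplicit false

namespace H77.Pres

open H40 Monoid

universe u

section

variable {B J : Type*} [Group B] [Group J] (f : B →* J) (v : J)

/-- Membership in one of the two cells. -/
def Cell (g : J) : Prop := (∃ c, g = f c) ∨ ∃ b c, g = f b * v * f c

/-- The conjugate of `b` lies in one of the two cells. -/
def Good (b : B) : Prop := Cell f v (v * f b * v)

variable {f v}

theorem Cell.left {g : J} (h : Cell f v g) (a : B) : Cell f v (f a * g) := by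
  rcases h with ⟨c, rfl⟩ | ⟨b, c, rfl⟩
  · exact Or.inl ⟨a * c, by rw [map_mul]⟩
  · exact Or.inr ⟨a * b, c, by rw [map_mul]; group⟩

theorem Cell.right {g : J} (h : Cell f v g) (a : B) : Cell f v (g * f a) := by
  rcases h with ⟨c, rfl⟩ | ⟨b, c, rfl⟩
  · exact Or.inl ⟨c * a, by rw [map_mul]⟩
  · exact Or.inr ⟨b, c * a, by rw [map_mul]; group⟩

theorem wconj_mul (hv : v * v = 1) (a b : B) :
    v * f (a * b) * v = (v * f a * v) * (v * f b * v) := by
  rw [map_mul]
  calc _ = v * f a * (v * v) * f b * v := by rw [hv]; group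
    _ = _ := by group

theorem Good.left (hv : v * v = 1) {a b : B} (ha : ∃ c, v * f a * v = f c) (hb : Good f v b) :
    Good f v (a * b) := by
  obtain ⟨c, hc⟩ := ha
  unfold Good
  rw [wconj_mul hv, hc]; exact Cell.left hb c

theorem Good.right (hv : v * v = 1) {a b : B} (ha : Good f v a) (hb : ∃ c, v * f b * v = f c) :
    Good f v (a * b) := by
  obtain ⟨c, hc⟩ := hb
  unfold Good
  rw [wconj_mul hv, hc]; exact Cell.right ha c

theorem Good.mul (hv : v * v = 1) {a b : B} (ha : Good f v a) (hb : Good f v b)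
    (h : ∀ a1 a2 b1 b2, v * f a * v = f a1 * v * f a2 → v * f b * v = f b1 * v * f b2 →
      Good f v (a2 * b1)) : Good f v (a * b) := by
  rcases ha with ha | ⟨a1, a2, ha⟩
  · exact hb.left hv ha
  rcases hb with hb | ⟨b1, b2, hb⟩
  · exact Good.right hv (Or.inr ⟨a1, a2, ha⟩) hb
  have := Cell.right (Cell.left (h a1 a2 b1 b2 ha hb) a1) b2
  unfold Good
  rw [wconj_mul hv, ha, hb]
  convert this using 1
  rw [map_mul]; group

theorem cell_all (hv : v * v = 1) (hgen : Subgroup.closure (Set.range f ∪ {v}) = ⊤)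
    (h : ∀ b, Good f v b) (g : J) : Cell f v g := by
  have hv' : ∀ g, Cell f v g → Cell f v (v * g) := by
    rintro _ (⟨c, rfl⟩ | ⟨b, c, rfl⟩)
    · exact Or.inr ⟨1, c, by simp⟩
    · simpa [mul_assoc] using Cell.right (h b) c
  have hg : g ∈ Subgroup.closure (Set.range f ∪ {v}) := hgen ▸ Subgroup.mem_top g
  induction hg using Subgroup.closure_induction_left with
  | one => exact Or.inl ⟨1, by simp⟩
  | mul_left x hx y _ ih =>
    rcases hx with ⟨a, rfl⟩ | rfl
    · exact ih.left a
    · exact hv' _ ih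
  | inv_mul_cancel x hx y _ ih =>
    rcases hx with ⟨a, rfl⟩ | rfl
    · rw [← map_inv]; exact ih.left _
    · rw [inv_eq_of_mul_eq_one_right hv]; exact hv' _ ih

end

/-- Presentations of a group with two double cosets. -/
theorem pr_rank_one {G : Type*} [Group G] (B : Subgroup G) (w : G) (hw : w ∉ B) (hw2 : w * w = 1)
    (hbr : ∀ g, Cell B.subtype w g) {ι : Type u} {g : ι → B} {r : ℕ} (hB : Pr g r) (L : List B)
    (hL : ∀ (J : Type u) [Group J] (f : B →* J) (v : J) (π : J →* G), (∀ x, π (f x) = x) →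
      π v = w → v * v = 1 → (∀ b ∈ L, Good f v b) → ∀ b, Good f v b) :
    Pr (Sum.elim (fun i => (g i : G)) (fun _ : PUnit.{u + 1} => w)) (r + (L.length + 1)) := by
  have hr : ∀ b : B, ∃ (b1 b2 : B) (ε : ℕ), (ε = 0 ∨ ε = 1) ∧ w * b * w = b1 * w ^ ε * b2 := by
    intro b
    rcases hbr (w * b * w) with ⟨c, hc⟩ | ⟨b1, b2, hc⟩
    · exact ⟨c, 1, 0, Or.inl rfl, by simpa using hc⟩
    · exact ⟨b1, b2, 1, Or.inr rfl, by simpa using hc⟩
  choose b1 b2 ε hε he using hr
  let W : Coprod B (FreeGroup PUnit.{u + 1}) := Coprod.inr (FreeGroup.of PUnit.unit)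
  have := hB.ext B.subtype (fun _ : PUnit.{u + 1} => w) (W * W :: L.map fun b =>
    W * Coprod.inl b * W * (Coprod.inl (b1 b) * W ^ ε b * Coprod.inl (b2 b))⁻¹) ?_ ?_ ?_
  · simpa using this
  · rw [eq_top_iff]; intro g _
    have m1 : ∀ c : B, B.subtype c ∈ B.subtype.range ⊔
      Subgroup.closure (Set.range fun _ : PUnit.{u + 1} => w) := fun c =>
        Subgroup.mem_sup_left ⟨c, rfl⟩
    rcases hbr g with ⟨c, rfl⟩ | ⟨b, c, rfl⟩
    · exact m1 c
    · exact mul_mem (mul_mem (m1 b)
        (Subgroup.mem_sup_right (Subgroup.subset_closure ⟨PUnit.unit, rfl⟩))) (m1 c)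
  · simp only [List.forall_mem_cons, List.forall_mem_map, map_mul, map_inv, map_pow, W,
      Coprod.lift_apply_inl, Coprod.lift_apply_inr, FreeGroup.lift_apply_of, mul_inv_eq_one]
    exact ⟨hw2, fun b _ => he b⟩
  · intro J _ f j π h1 h2 hgen hrel
    simp only [List.forall_mem_cons, List.forall_mem_map, map_mul, map_inv, map_pow, W,
      Coprod.lift_apply_inl, Coprod.lift_apply_inr, FreeGroup.lift_apply_of, mul_inv_eq_one] at hrel
    have hall := cell_all hrel.1 (by
      rw [Subgroup.closure_union, ← MonoidHom.coe_range, Subgroup.closure_eq, ← hgen,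
        Set.range_unique]) (hL J f (j PUnit.unit) π h1 (h2 _) hrel.1 (fun b hb => by
        unfold Good
        rw [hrel.2 b hb]
        rcases hε b with h | h <;> rw [h]
        · exact Or.inl ⟨b1 b * b2 b, by simp⟩
        · exact Or.inr ⟨b1 b, b2 b, by simp⟩))
    rw [injective_iff_map_eq_one]
    intro x hx
    rcases hall x with ⟨c, rfl⟩ | ⟨b, c, rfl⟩
    · rw [h1] at hx
      rw [show c = 1 from Subtype.ext hx, map_one]
    · rw [map_mul, map_mul, h1, h1, h2] at hx
      refine absurd ?_ hw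
      rw [show w = (B.subtype b)⁻¹ * (B.subtype b * w * B.subtype c) * (B.subtype c)⁻¹ by group, hx]
      exact mul_mem (mul_mem (inv_mem b.2) (one_mem _)) (inv_mem c.2)

end H77.Pres
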