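import Cfsg.Agent.Lib.Pres.Bruhat

/-!
# Short presentations of `SL_2(F)` and `PSL_2(F)`
-/

set_option autoImplicit false

open scoped commutatorElement

namespace H77.Pres

open H40 H64 H64.St2

universe v

/-- A generator of a field of odd order `> 9` which is a square and one less than a square. -/
theorem exists_alpha {F : Type*} [Field F] [Finite F] {p : ℕ} [Fact p.Prime] [CharP F p]
    (hp : p ≠ 2) (h9 : 9 < Nat.card F) {ζ : F} (hζ0 : ζ ≠ 0)
    (hζ : ∀ a : F, a ≠ 0 → ∃ m : ℕ, ζ ^ m = a) (ho : orderOf ζ = Nat.card F - 1) :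
    ∃ a b : ℕ, 1 + (ζ ^ 2) ^ a = (ζ ^ 2) ^ b ∧ ∀ K : Subring F, (ζ ^ 2) ^ a ∈ K → K = ⊤ := by
  have h2 : (2 : F) ≠ 0 := fun h => by
    have := (CharP.cast_eq_zero_iff F p 2).1 (by exact_mod_cast h)
    exact hp ((Nat.prime_dvd_prime_iff_eq Fact.out Nat.prime_two).1 this)
  have hle : ∀ n, 0 < n → ζ ^ n = 1 → Nat.card F - 1 ≤ n := fun n hn h =>
    ho ▸ Nat.le_of_dvd hn (orderOf_dvd_of_pow_eq_one h)
  have h4 : ζ ^ 4 ≠ 1 := fun h => by have := hle 4 (by norm_num) h; omega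
  obtain ⟨a, ha⟩ := hζ ((ζ⁻¹ - ζ) / 2) (fun h => h4 (by
    have : ζ ^ 2 = 1 := by field_simp at h; linear_combination -h
    rw [show 4 = 2 * 2 from rfl, pow_mul, this, one_pow]))
  obtain ⟨b, hb⟩ := hζ ((ζ⁻¹ + ζ) / 2) (fun h => h4 (by
    have : ζ ^ 2 = -1 := by field_simp at h; linear_combination h
    rw [show 4 = 2 * 2 from rfl, pow_mul, this]; simp))
  refine ⟨a, b, ?_, fun K hK => ?_⟩
  · rw [← pow_mul, ← pow_mul, mul_comm 2, mul_comm 2, pow_mul, pow_mul, ha, hb]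
    field_simp; ring
  by_contra hne
  have h3 : 3 * Nat.card K ≤ Nat.card F := by
    by_contra h; exact hne (subring_top_of_card (odd_card hp) K (not_le.1 h))
  have hs : ζ ^ 2 + (ζ ^ 2)⁻¹ ∈ K := by
    have e : ζ ^ 2 + (ζ ^ 2)⁻¹ = 4 * (ζ ^ 2) ^ a + 2 := by
      rw [← pow_mul, mul_comm 2, pow_mul, ha]; field_simp; ring
    rw [e]
    exact K.add_mem (K.mul_mem (by exact_mod_cast natCast_mem K 4) hK)
      (by exact_mod_cast natCast_mem K 2)
  classical
  have := Fintype.ofFinite K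
  let _ : Field K := Fintype.fieldOfDomain K
  have : CharP K p := ⟨fun x => by
    rw [← CharP.cast_eq_zero_iff F p x, ← Subtype.coe_inj]; simp⟩
  obtain ⟨e, -, he⟩ := FiniteField.card K p
  have hk : (ζ ^ 2 + (ζ ^ 2)⁻¹) ^ Fintype.card K = ζ ^ 2 + (ζ ^ 2)⁻¹ :=
    congrArg Subtype.val (FiniteField.pow_card (⟨_, hs⟩ : K))
  rw [he, add_pow_char_pow, ← he, inv_pow] at hk
  rw [Nat.card_eq_fintype_card (α := K)] at h3
  have hk1 : 1 < Fintype.card K := Fintype.one_lt_card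
  obtain ⟨k, hk'⟩ : ∃ k, Fintype.card K = k + 1 := ⟨Fintype.card K - 1, by omega⟩
  rw [hk'] at hk h3 hk1
  have hs0 : ζ ^ 2 ≠ 0 := pow_ne_zero _ hζ0
  have key : ((ζ ^ 2) ^ k - 1) * ((ζ ^ 2) ^ (k + 2) - 1) = 0 := by
    have hs1 : (ζ ^ 2) ^ k ≠ 0 := pow_ne_zero _ hs0
    rw [pow_succ] at hk
    rw [pow_add]
    generalize ζ ^ 2 = s at *
    generalize s ^ k = r at *
    field_simp at hk
    linear_combination hk
  rcases mul_eq_zero.1 key with h | h
  · have := hle (2 * k) (by omega) (by rw [pow_mul]; exact sub_eq_zero.1 h)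
    omega
  · have := hle (2 * (k + 2)) (by omega) (by rw [pow_mul]; exact sub_eq_zero.1 h)
    omega

/-- The generators. -/
abbrev fu : FreeGroup (Fin 3) := FreeGroup.of 0
/-- The generators. -/
abbrev fh : FreeGroup (Fin 3) := FreeGroup.of 1
/-- The generators. -/
abbrev fw : FreeGroup (Fin 3) := FreeGroup.of 2

/-- Evaluation. -/
abbrev e3 {J : Type*} [Group J] (u h w : J) : FreeGroup (Fin 3) →* J := FreeGroup.lift ![u, h, w]

/-- The Borel part for odd `q`. -/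
theorem exists_borel {F : Type*} [Field F] [Finite F] {p : ℕ} [Fact p.Prime] [CharP F p]
    (hp : p ≠ 2) {ζ : F} (hζ0 : ζ ≠ 0)
    (hζ : ∀ a : F, a ≠ 0 → ∃ m : ℕ, ζ ^ m = a) (ho : orderOf ζ = Nat.card F - 1) :
    ∃ (R : List (FreeGroup (Fin 3))) (X : F → FreeGroup (Fin 3)), R.length = 5 ∧
      (∀ (G : Type v) [Group G] (x : F → G) (h w : G), IsAdd x →
        (∀ a, h * x a * h⁻¹ = x (ζ ^ 2 * a)) →
        (∀ r ∈ R, e3 (x 1) h w r = 1) ∧ ∀ a, e3 (x 1) h w (X a) = x a) ∧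
      ∀ (J : Type) [Group J] (u h w : J), (∀ r ∈ R, e3 u h w r = 1) →
        IsAdd (fun a => e3 u h w (X a)) ∧ e3 u h w (X 1) = u ∧
        ∀ a, h * e3 u h w (X a) * h⁻¹ = e3 u h w (X (ζ ^ 2 * a)) := by
  obtain ⟨a, D, r, hr1, hr2⟩ : ∃ (a : ℕ) (D : LD p ((ζ ^ 2) ^ a)) (r : FreeGroup (Fin 3)),
      (∀ (G : Type v) [Group G] (x : F → G) (h w : G), IsAdd x →
        (∀ a, h * x a * h⁻¹ = x (ζ ^ 2 * a)) → e3 (x 1) h w r = 1) ∧
      ∀ (J : Type) [Group J] (u h w : J), e3 u h w r = 1 → Commute u (cj (h ^ a) u 1) →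
        ∀ i < D.d, ∀ j < D.d, Commute (cj (h ^ a) u i) (cj (h ^ a) u j) := by
    by_cases h9 : 9 < Nat.card F
    · obtain ⟨a, b, hab, hK⟩ := exists_alpha hp h9 hζ0 hζ ho
      obtain ⟨D⟩ := exists_LD p _ hK
      refine ⟨a, D, cj fh fu b * (fu * cj fh fu a)⁻¹, fun G _ x h w hx hh => ?_,
        fun J _ u h w hr hc i _ j _ => ?_⟩
      · simp only [map_mul, map_inv, map_cj, FreeGroup.lift_apply_of, Matrix.cons_val]
        rw [cj_model hh, cj_model hh, ← hx, mul_one, mul_one, hab, mul_inv_cancel]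
      · simp only [map_mul, map_inv, map_cj, FreeGroup.lift_apply_of, Matrix.cons_val,
          mul_inv_eq_one] at hr
        exact baumslag (s := h ^ b) ((Commute.refl h).pow_pow _ _) hc
          (by simpa [cj] using hr) i j
    · obtain ⟨D⟩ := exists_LD p ((ζ ^ 2) ^ 1) (by
        rw [pow_one]; exact subring_top_of_pow (odd_card hp) hζ two_pos (by norm_num))
      refine ⟨1, D, 1, fun G _ x h w _ _ => map_one _, fun J _ u h w _ hc i hi j hj => ?_⟩
      have hd : D.d ≤ 2 := by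
        by_contra hd
        have h3 : 3 ≤ p := by have := (Fact.out : p.Prime).two_le; omega
        have := D.card
        have h4 : 3 ^ 3 ≤ p ^ D.d :=
          (Nat.pow_le_pow_left h3 3).trans (Nat.pow_le_pow_right (by omega) (by omega))
        omega
      have hi' : i < 2 := by omega
      have hj' : j < 2 := by omega
      interval_cases i <;> interval_cases j
      · exact Commute.refl _
      · simpa using hc
      · simpa using hc.symm
      · exact Commute.refl _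
  refine ⟨[fu ^ p, ⁅fu, cj (fh ^ a) fu 1⁆, r,
    cj (fh ^ a) fu D.d * (D.wd (cj (fh ^ a) fu) (((ζ ^ 2) ^ a) ^ D.d))⁻¹,
    fh * fu * fh⁻¹ * (D.wd (cj (fh ^ a) fu) (ζ ^ 2))⁻¹], D.wd (cj (fh ^ a) fu), rfl,
    fun G _ x h w hx hh => ?_, fun J _ u h w hr => ?_⟩
  · have hh' : ∀ b, h ^ a * x b * (h ^ a)⁻¹ = x ((ζ ^ 2) ^ a * b) := fun b => cj_model hh b a
    have hcj : ∀ m, cj (h ^ a) (x 1) m = x (((ζ ^ 2) ^ a) ^ m) := fun m => by
      rw [cj_model hh', mul_one]
    have hw := D.wd_model hx (fun m _ => hcj m)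
    simp only [List.forall_mem_cons, map_mul, map_inv, map_cj, map_wd_cj, map_pow,
      map_commutatorElement, FreeGroup.lift_apply_of, Matrix.cons_val, hw, hcj, hh,
      mul_inv_cancel, mul_one, hr1 G x h w hx hh, (hx.comm _ _).commutator_eq]
    simp [← hx.nsmul, hx.zero]
  · simp only [List.forall_mem_cons, map_mul, map_inv, map_cj, map_wd_cj, map_pow,
      map_commutatorElement, FreeGroup.lift_apply_of, Matrix.cons_val, mul_inv_eq_one,
      commutatorElement_eq_one_iff_commute] at hr ⊢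
    obtain ⟨r1, r2, r3, r4, r5, -⟩ := hr
    obtain ⟨a1, a2, a3⟩ := D.main_cj (hr2 J u h w r3 r2) r1 r4
    have a4 : D.wd (cj (h ^ a) u) 1 = u := by simpa using a3 0
    exact ⟨a1, a4, D.equivariant a1 a2 ((Commute.refl h).pow_right a) (by rw [a4, r5])⟩

theorem top_of_range {J : Type*} [Group J] {u h w : J}
    (hg : Subgroup.closure (Set.range ![u, h, w]) = ⊤) (H : Subgroup J) (h1 : u ∈ H) (h2 : h ∈ H)
    (h3 : w ∈ H) : H = ⊤ := by
  rw [eq_top_iff, ← hg, Subgroup.closure_le]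
  rintro _ ⟨i, rfl⟩
  fin_cases i <;> assumption

theorem e3_mem {J : Type*} [Group J] (u h w : J) (x : FreeGroup (Fin 3)) :
    e3 u h w x ∈ Subgroup.closure (Set.range ![u, h, w]) := by
  rw [← FreeGroup.range_lift_eq_closure]; exact ⟨x, rfl⟩

theorem gen_of_words {F : Type*} [Field F] {G : Type*} [Group G]
    (μ : Matrix.SpecialLinearGroup (Fin 2) F →* G) (hμ : Function.Surjective μ) {h : G}
    (X : F → FreeGroup (Fin 3)) (hX : ∀ a, e3 (μ (slx 1)) h (μ (wm F)) (X a) = μ (slx a)) :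
    Subgroup.closure (Set.range ![μ (slx 1), h, μ (wm F)]) = ⊤ := by
  have := top_of_slx_wm ((Subgroup.closure (Set.range ![μ (slx 1), h, μ (wm F)])).comap μ)
    (fun a => by rw [Subgroup.mem_comap, ← hX a]; exact e3_mem _ _ _ _)
    (Subgroup.mem_comap.2 (Subgroup.subset_closure ⟨2, rfl⟩))
  rw [eq_top_iff]; intro g _
  obtain ⟨g, rfl⟩ := hμ g
  have hg : g ∈ (Subgroup.closure (Set.range ![μ (slx 1), h, μ (wm F)])).comap μ :=
    this ▸ Subgroup.mem_top g
  exact hg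

theorem half_pow {F : Type*} [Field F] [Finite F] {ζ : F} (ho : orderOf ζ = Nat.card F - 1)
    {N : ℕ} (hN : Nat.card F = 2 * N + 1) : ζ ^ N = -1 := by
  have h1 : 1 < Nat.card F := Finite.one_lt_card
  have h2 : ζ ^ N * ζ ^ N = 1 := by
    rw [← pow_add, ← two_mul, show 2 * N = orderOf ζ by omega, pow_orderOf_eq_one]
  refine (mul_self_eq_one_iff.1 h2).resolve_left fun h => ?_
  have := Nat.le_of_dvd (by omega) (orderOf_dvd_of_pow_eq_one h)
  omega

theorem zpow_dvd {F : Type*} [Field F] {ζ : F} (hζ : ζ ≠ 0) {k : ℤ} (h : ζ ^ k = 1) :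
    (orderOf ζ : ℤ) ∣ k := by
  have e : orderOf (Units.mk0 ζ hζ) = orderOf ζ := by rw [← orderOf_units]; rfl
  rw [← e, orderOf_dvd_iff_zpow_eq_one]
  ext; simpa using h

theorem hasPr_SL_two_odd (F : Type*) [Field F] [Finite F] {p : ℕ} [Fact p.Prime] [CharP F p]
    (hp : p ≠ 2) : HasPr (Matrix.SpecialLinearGroup (Fin 2) F) 3 9 := by
  obtain ⟨ζ, hζ0, hζ, ho⟩ := exists_prim F
  obtain ⟨N, hN⟩ := odd_card (F := F) hp
  have hζN := half_pow ho hN
  obtain ⟨R, X, hR, hm1, hJ⟩ := exists_borel hp hζ0 hζ ho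
  obtain ⟨m1, m2⟩ := hm1 _ slx (hm hζ0) (wm F) slx_isAdd (hm_slx hζ0)
  have := Pr.of_univ ![slx 1, hm hζ0, wm F] (R ++ [fw ^ 2 * (fh ^ N)⁻¹, fw * fh * fw⁻¹ * fh,
    (fw * fu) ^ 3, fw * X ζ * fw⁻¹ * (X (-ζ⁻¹) * fh⁻¹ * fw * X (-ζ⁻¹))⁻¹])
    (gen_of_words (MonoidHom.id _) Function.surjective_id X m2) ?_ ?_
  · exact ⟨_, this.mono (by simp [hR])⟩
  · simp only [List.forall_mem_append, List.forall_mem_cons, map_mul, map_inv, map_pow,
      FreeGroup.lift_apply_of, Matrix.cons_val, m2, wm_hm, wm_cube, wm_second hζ0,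
      inv_mul_cancel, mul_inv_cancel, mul_inv_eq_one]
    refine ⟨m1, ?_, by simp⟩
    rw [wm_sq, hm_pow]; congr 1; exact hζN.symm
  · intro J _ j π hπ hgen hr
    obtain ⟨u, h, w, rfl⟩ : ∃ u h w, j = ![u, h, w] :=
      ⟨j 0, j 1, j 2, by ext i; fin_cases i <;> rfl⟩
    simp only [List.forall_mem_append, List.forall_mem_cons, map_mul, map_inv, map_pow,
      FreeGroup.lift_apply_of, Matrix.cons_val, mul_inv_eq_one] at hr
    obtain ⟨r0, r1, r2, r3, r4, -⟩ := hr
    obtain ⟨a1, a2, a3⟩ := hJ J u h w r0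
    let E : BD F J (ζ ^ 2) := ⟨fun a => e3 u h w (X a), h, w, a1, pow_ne_zero _ hζ0, a3,
      eq_inv_of_mul_eq_one_left r2, ⟨N, by simpa using r1.symm⟩⟩
    have hπc : π.comp (e3 u h w) = e3 (slx 1) (hm hζ0) (wm F) := by
      ext i : 1; simpa using hπ i
    refine inj_of_bruhat hζ0 (MonoidHom.id _) ker_id E (fun a ha => ?_)
      (fun H h1 h2 h3 => top_of_range hgen H (a2 ▸ h1 1) h2 h3) π
      (fun a => (DFunLike.congr_fun hπc (X a)).trans (m2 a)) (hπ 1) (hπ 2) (fun k hk => ?_)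
    · obtain ⟨m, rfl⟩ := hζ a ha
      rcases Nat.even_or_odd' m with ⟨k, rfl | rfl⟩
      · have := BD.big_shift (BD.big_one (E := E) (by simpa only [E, a2] using r3)) k
        simpa [pow_mul] using this
      · have e : E.Big (E.w * E.X ζ * E.w⁻¹) :=
          ⟨E.X (-ζ⁻¹) * h⁻¹, mul_mem (E.X_mem _) (by simpa using E.h_mem (-1)), _, E.X_mem _, r4⟩
        have := BD.big_shift e k
        simpa [pow_mul, pow_succ] using this
    · rw [MonoidHom.id_apply, hm_zpow] at hk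
      have e : ζ ^ k = 1 := by
        have := congrArg (fun g : Matrix.SpecialLinearGroup (Fin 2) F => g 0 0) hk
        simpa [coe_hm] using this
      obtain ⟨l, rfl⟩ := zpow_dvd hζ0 e
      have e2 := E.w_zpow N
      change w * h ^ (N : ℤ) * w⁻¹ = h ^ (-(N : ℤ)) at e2
      rw [zpow_neg, zpow_natCast, ← r1, ← pow_succ', mul_inv_eq_iff_eq_mul] at e2
      have e3 : h ^ (orderOf ζ : ℤ) = 1 := by
        rw [zpow_natCast, show orderOf ζ = N + N by omega, pow_add, ← r1, ← mul_left_inj w,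
          mul_assoc, ← pow_succ, e2]
        group
      change h ^ _ = 1
      rw [zpow_mul, e3, one_zpow]

theorem sq_eq_one_aux {J : Type*} [Group J] {a u w : J} (h1 : a * u * a⁻¹ = u⁻¹)
    (h2 : w * a * w⁻¹ = a⁻¹) (h3 : w ^ 2 = 1) (h4 : (w * u) ^ 3 = 1) : a ^ 2 = 1 := by
  have hw : w⁻¹ = w := by rw [inv_eq_iff_mul_eq_one, ← sq, h3]
  have e1 : (w⁻¹ * u⁻¹) ^ 3 = 1 := by
    rw [← mul_inv_rev, inv_pow, inv_eq_one, show u * w = w⁻¹ * (w * u) * w⁻¹⁻¹ by group, conj_pow,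
      h4]; simp
  have e2 : a * w = w * a⁻¹ := by
    rw [← h2, ← mul_assoc, ← mul_assoc, ← sq, h3, one_mul, hw]
  have e3 : Commute (a ^ 2) u := by
    have : a ^ 2 * u * (a ^ 2)⁻¹ = u := by
      rw [show a ^ 2 * u * (a ^ 2)⁻¹ = a * (a * u * a⁻¹) * a⁻¹ by rw [sq]; group, h1,
        show a * u⁻¹ * a⁻¹ = (a * u * a⁻¹)⁻¹ by group, h1, inv_inv]
    exact mul_inv_eq_iff_eq_mul.1 this
  have e4 : (a ^ 2)⁻¹ * w = w * a ^ 2 := by
    rw [← inv_pow, ← h2, conj_pow]; group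
  have e5 : (w * (a ^ 2)⁻¹ * u⁻¹) ^ 3 = 1 := by
    have : w * (a ^ 2)⁻¹ * u⁻¹ = a * (w * u) * a⁻¹ := by
      rw [← h1, ← mul_assoc a w, e2, sq]; group
    rw [this, conj_pow, h4]; simp
  rw [hw] at e1
  generalize a ^ 2 = b at *
  have e6 := e3.inv_left.inv_right.eq
  have : (w * b⁻¹ * u⁻¹) ^ 3 = (w * u⁻¹) ^ 3 * b⁻¹ := by
    calc (w * b⁻¹ * u⁻¹) ^ 3 = w * (b⁻¹ * u⁻¹) * w * b⁻¹ * u⁻¹ * w * (b⁻¹ * u⁻¹) := by
          simp only [pow_succ, pow_zero]; group
      _ = w * u⁻¹ * (b⁻¹ * w) * b⁻¹ * u⁻¹ * w * (u⁻¹ * b⁻¹) := by rw [e6]; group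
      _ = _ := by rw [e4]; simp only [pow_succ, pow_zero]; group
  rw [e5, e1, one_mul] at this
  exact inv_eq_one.1 this.symm

theorem hasPr_PSL_two_odd (F : Type*) [Field F] [Finite F] {p : ℕ} [Fact p.Prime] [CharP F p]
    (hp : p ≠ 2) : HasPr (Matrix.ProjectiveSpecialLinearGroup (Fin 2) F) 3 9 := by
  obtain ⟨ζ, hζ0, hζ, ho⟩ := exists_prim F
  obtain ⟨N, hN⟩ := odd_card (F := F) hp
  have hζN := half_pow ho hN
  obtain ⟨R, X, hR, hm1, hJ⟩ := exists_borel hp hζ0 hζ ho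
  let μ := QuotientGroup.mk' (Subgroup.center (Matrix.SpecialLinearGroup (Fin 2) F))
  have hμ1 : μ (hm (neg_ne_zero.2 one_ne_zero)) = 1 := by
    refine (QuotientGroup.eq_one_iff _).2 (Matrix.SpecialLinearGroup.mem_center_iff.2
      ⟨-1, by simp, ?_⟩)
    ext i j; fin_cases i <;> fin_cases j <;> simp [coe_hm]
  have hμ2 : μ (hm hζ0) ^ N = 1 := by
    rw [← map_pow, hm_pow, ← hμ1]; congr 2
  obtain ⟨m1, m2⟩ := hm1 _ (fun a => μ (slx a)) (μ (hm hζ0)) (μ (wm F)) (slx_isAdd.map μ)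
    (fun a => by rw [← hm_slx hζ0]; simp)
  obtain ⟨r, hr1, hr2⟩ : ∃ r : FreeGroup (Fin 3), e3 (μ (slx 1)) (μ (hm hζ0)) (μ (wm F)) r = 1 ∧
      ∀ (J : Type) [Group J] (E : BD F J (ζ ^ 2)), (∀ a, e3 (E.X 1) E.h E.w (X a) = E.X a) →
        e3 (E.X 1) E.h E.w r = 1 → E.w ^ 2 = 1 → (E.w * E.X 1) ^ 3 = 1 →
        E.h ^ N = 1 ∧ E.Big (E.w * E.X ζ * E.w⁻¹) := by
    rcases Nat.even_or_odd' N with ⟨k, rfl | rfl⟩
    · refine ⟨fw * X ζ * fw⁻¹ * (X (-ζ⁻¹) * fh⁻¹ * fw * X (-ζ⁻¹))⁻¹, ?_,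
        fun J _ E hX r1 r2 r3 => ?_⟩
      · simp only [map_mul, map_inv, FreeGroup.lift_apply_of, Matrix.cons_val, m2, mul_inv_eq_one]
        simpa using congrArg μ (wm_second hζ0)
      · simp only [map_mul, map_inv, FreeGroup.lift_apply_of, Matrix.cons_val, hX,
          mul_inv_eq_one] at r1
        refine ⟨?_, E.X (-ζ⁻¹) * E.h⁻¹, mul_mem (E.X_mem _) (by simpa using E.h_mem (-1)), _,
          E.X_mem _, r1⟩
        have e1 := E.hX_zpow k 1
        have e2 := E.w_zpow k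
        rw [zpow_natCast, zpow_natCast, ← pow_mul, hζN, mul_one, E.add.neg] at e1
        rw [zpow_neg, zpow_natCast] at e2
        rw [mul_comm, pow_mul]
        exact sq_eq_one_aux e1 e2 r2 r3
    · refine ⟨fh ^ (2 * k + 1), by simpa using hμ2, fun J _ E hX r1 r2 r3 => ?_⟩
      simp only [map_pow, FreeGroup.lift_apply_of, Matrix.cons_val] at r1
      refine ⟨r1, ?_⟩
      have := BD.big_shift (BD.big_neg (BD.big_one r3)) (-k)
      convert this using 4
      rw [← hζN, zpow_neg, zpow_natCast, pow_succ ζ (2 * k), pow_mul,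
        inv_mul_cancel_left₀ (pow_ne_zero _ (pow_ne_zero _ hζ0))]
  have := Pr.of_univ ![μ (slx 1), μ (hm hζ0), μ (wm F)] (R ++ [fw ^ 2, fw * fh * fw⁻¹ * fh,
    (fw * fu) ^ 3, r])
    (gen_of_words μ (QuotientGroup.mk'_surjective _) X m2) ?_ ?_
  · exact ⟨_, this.mono (by simp [hR])⟩
  · simp only [List.forall_mem_append, List.forall_mem_cons, map_mul, map_inv, map_pow,
      FreeGroup.lift_apply_of, Matrix.cons_val]
    refine ⟨m1, ?_, ?_, ?_, hr1, by simp⟩
    · rw [← map_pow, wm_sq, hμ1]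
    · rw [← map_inv, ← map_mul, ← map_mul, ← map_mul, wm_hm, inv_mul_cancel, map_one]
    · rw [← map_mul, ← map_pow, wm_cube, map_one]
  · intro J _ j π hπ hgen hr
    obtain ⟨u, h, w, rfl⟩ : ∃ u h w, j = ![u, h, w] :=
      ⟨j 0, j 1, j 2, by ext i; fin_cases i <;> rfl⟩
    simp only [List.forall_mem_append, List.forall_mem_cons, map_mul, map_inv, map_pow,
      FreeGroup.lift_apply_of, Matrix.cons_val] at hr
    obtain ⟨r0, r1, r2, r3, r4, -⟩ := hr
    obtain ⟨a1, a2, a3⟩ := hJ J u h w r0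
    let E : BD F J (ζ ^ 2) := ⟨fun a => e3 u h w (X a), h, w, a1, pow_ne_zero _ hζ0, a3,
      eq_inv_of_mul_eq_one_left r2, r1 ▸ one_mem _⟩
    have hπc : π.comp (e3 u h w) = e3 (μ (slx 1)) (μ (hm hζ0)) (μ (wm F)) := by
      ext i : 1; simpa using hπ i
    have r3' : (E.w * E.X 1) ^ 3 = 1 := by simpa only [E, a2] using r3
    obtain ⟨b1, b2⟩ := hr2 J E (fun a => by simp only [E, a2]) (by simpa only [E, a2] using r4)
      r1 r3'
    refine inj_of_bruhat hζ0 μ (fun g hg => ⟨(ker_mk g hg).1, (ker_mk g hg).2.1⟩) E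
      (fun a ha => ?_) (fun H h1 h2 h3 => top_of_range hgen H (a2 ▸ h1 1) h2 h3) π
      (fun a => (DFunLike.congr_fun hπc (X a)).trans (m2 a)) (hπ 1) (hπ 2) (fun k hk => ?_)
    · obtain ⟨m, rfl⟩ := hζ a ha
      rcases Nat.even_or_odd' m with ⟨k, rfl | rfl⟩
      · simpa [pow_mul] using BD.big_shift (BD.big_one r3') k
      · simpa [pow_mul, pow_succ] using BD.big_shift b2 k
    · have e := (ker_mk _ hk).2.2
      rw [hm_zpow] at e
      have e2 : ζ ^ (2 * k) = 1 := by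
        rw [two_mul, zpow_add₀ hζ0]
        nth_rewrite 1 [show ζ ^ k = (ζ ^ k)⁻¹ by simpa [coe_hm] using e]
        exact inv_mul_cancel₀ (zpow_ne_zero _ hζ0)
      obtain ⟨l, hl⟩ := zpow_dvd hζ0 e2
      have : k = N * l := by
        rw [show orderOf ζ = 2 * N by omega] at hl
        push_cast at hl; linarith
      rw [this, zpow_mul, zpow_natCast, b1, one_zpow]

theorem hasPr_SL_two_even (F : Type*) [Field F] [Finite F] [CharP F 2] :
    HasPr (Matrix.SpecialLinearGroup (Fin 2) F) 3 5 := by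
  obtain ⟨ζ, hζ0, hζ, ho⟩ := exists_prim F
  have hζ2 : ∀ a : F, a ≠ 0 → ∃ m : ℕ, (ζ ^ 2) ^ m = a := fun a ha => by
    obtain ⟨z, rfl⟩ := FiniteField.isSquare_of_char_two (ringChar.eq F 2) a
    obtain ⟨m, rfl⟩ := hζ z (by rintro rfl; simp at ha)
    exact ⟨m, by ring⟩
  obtain ⟨D⟩ := exists_LD 2 (ζ ^ 2) (subring_top_of_prim hζ2)
  have hcj : ∀ m, cj (hm hζ0) (slx 1) m = slx ((ζ ^ 2) ^ m) := fun m => by
    rw [cj_model (hm_slx hζ0), mul_one]
  obtain ⟨r, hr1, hr2⟩ : ∃ r : FreeGroup (Fin 3), e3 (slx 1) (hm hζ0) (wm F) r = 1 ∧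
      ∀ (J : Type) [Group J] (u h w : J), e3 u h w r = 1 → u ^ 2 = 1 →
        (∀ a b, Commute (cj h u a) (cj h u b)) ∧
        ∀ n, h ^ n ∈ Subgroup.closure (Set.range (cj h u)) → h ^ n = 1 := by
    by_cases h1 : 1 + ζ ^ 2 = 0
    · refine ⟨fh, ?_, fun J _ u h w r1 _ => ?_⟩
      · have : (ζ - 1) ^ 2 = 0 := by
          linear_combination h1 - ζ * (CharTwo.two_eq_zero : (2 : F) = 0)
        simpa using hm_one hζ0 (sub_eq_zero.1 (pow_eq_zero_iff two_ne_zero |>.1 this))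
      · obtain rfl : h = 1 := by simpa using r1
        exact ⟨fun a b => by simp [cj], fun n _ => one_pow n⟩
    · obtain ⟨l, hl⟩ := hζ2 _ h1
      refine ⟨cj fh fu l * (fu * cj fh fu 1)⁻¹, ?_, fun J _ u h w r1 r2 => ?_⟩
      · simp only [map_mul, map_inv, map_cj, FreeGroup.lift_apply_of, Matrix.cons_val, hcj]
        rw [← slx_isAdd, hl, pow_one, mul_inv_cancel]
      · simp only [map_mul, map_inv, map_cj, FreeGroup.lift_apply_of, Matrix.cons_val,
          mul_inv_eq_one] at r1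
        have hsq : ∀ m, cj h u m ^ 2 = 1 := fun m => by rw [cj, conj_pow, r2]; simp
        have hc1 : Commute u (cj h u 1) := by
          have e := hsq l
          have e1 := hsq 1
          rw [r1] at e
          rw [sq, ← eq_inv_iff_mul_eq_one] at e e1 r2
          rw [mul_inv_rev, ← e1, ← r2] at e
          exact e
        have hc := baumslag (s := h ^ l) ((Commute.refl h).pow_left l) hc1 r1
        refine ⟨hc, fun n hn => ?_⟩
        have hV : ∀ x ∈ Subgroup.closure (Set.range (cj h u)),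
            ∀ y ∈ Subgroup.closure (Set.range (cj h u)), Commute x y := by
          intro x hx y hy
          refine Subgroup.closure_induction₂ (p := fun x y _ _ => Commute x y) ?_
            (fun _ _ => Commute.one_left _) (fun _ _ => Commute.one_right _)
            (fun _ _ _ _ _ _ a b => a.mul_left b) (fun _ _ _ _ _ _ a b => a.mul_right b)
            (fun _ _ _ _ a => a.inv_left) (fun _ _ _ _ a => a.inv_right) hx hy
          rintro _ _ ⟨a, rfl⟩ ⟨b, rfl⟩; exact hc a b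
        have hh : ∀ x ∈ Subgroup.closure (Set.range (cj h u)),
            h * x * h⁻¹ ∈ Subgroup.closure (Set.range (cj h u)) :=
          conj_mem_of_closure' _ _ h (by
            rintro _ ⟨a, rfl⟩; exact Subgroup.subset_closure ⟨a + 1, (cj_succ h u a).symm⟩)
        have key : ∀ x ∈ Subgroup.closure (Set.range (cj h u)),
            h ^ l * x * (h ^ l)⁻¹ = x * (h * x * h⁻¹) := by
          intro x hx
          induction hx using Subgroup.closure_induction with
          | mem x hx =>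
            obtain ⟨a, rfl⟩ := hx
            have := congrArg (fun y => h ^ a * y * (h ^ a)⁻¹) r1
            simp only [cj, pow_one] at this ⊢
            calc _ = h ^ a * (h ^ l * u * (h ^ l)⁻¹) * (h ^ a)⁻¹ := by group
              _ = _ := by rw [this]; group
          | one => simp
          | mul x y hx hy a b =>
            calc _ = (h ^ l * x * (h ^ l)⁻¹) * (h ^ l * y * (h ^ l)⁻¹) := by group
              _ = x * ((h * x * h⁻¹) * y) * (h * y * h⁻¹) := by rw [a, b]; group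
              _ = _ := by rw [(hV _ (hh x hx) y hy).eq]; group
          | inv x hx a =>
            calc _ = (h ^ l * x * (h ^ l)⁻¹)⁻¹ := by group
              _ = _ := by rw [a, (hV x hx _ (hh x hx)).eq]; group
        have := key _ hn
        have e1 : h ^ l * h ^ n * (h ^ l)⁻¹ = h ^ n := by group
        have e2 : h * h ^ n * h⁻¹ = h ^ n := by group
        rw [e1, e2] at this
        exact mul_eq_left.1 this.symm
  have m2 : ∀ a, e3 (slx 1) (hm hζ0) (wm F) (D.wd (cj fh fu) a) = slx a := fun a => by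
    rw [map_wd_cj]
    simpa using D.wd_model slx_isAdd (fun m _ => hcj m) a
  have := Pr.of_univ ![slx 1, hm hζ0, wm F] [fu ^ 2, r,
    cj fh fu D.d * (D.wd (cj fh fu) ((ζ ^ 2) ^ D.d))⁻¹ * (fh ^ orderOf ζ)⁻¹,
    fw * fh * fw⁻¹ * fh, fw * fu * fw * (fu * fw * fu)⁻¹]
    (gen_of_words (MonoidHom.id _) Function.surjective_id _ m2) ?_ ?_
  · exact ⟨_, this⟩
  · simp only [List.forall_mem_cons, map_mul, map_inv, map_pow, map_cj, hcj,
      FreeGroup.lift_apply_of, Matrix.cons_val, m2, wm_hm,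
      inv_mul_cancel, mul_inv_cancel, mul_inv_eq_one, hr1]
    refine ⟨?_, trivial, ?_, trivial, ?_, by simp⟩
    · rw [← slx_isAdd.nsmul]; simpa [CharTwo.two_eq_zero] using (slx_isAdd (F := F)).zero
    · rw [hm_pow, hm_one _ (pow_orderOf_eq_one ζ)]
    · ext i j; fin_cases i <;> fin_cases j <;>
        simp [coe_wm, coe_slx, Matrix.mul_apply, Fin.sum_univ_two, CharTwo.neg_eq,
          CharTwo.add_self_eq_zero]
  · intro J _ j π hπ hgen hr
    obtain ⟨u, h, w, rfl⟩ : ∃ u h w, j = ![u, h, w] :=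
      ⟨j 0, j 1, j 2, by ext i; fin_cases i <;> rfl⟩
    simp only [List.forall_mem_cons, map_mul, map_inv, map_pow, map_cj, map_wd_cj,
      FreeGroup.lift_apply_of, Matrix.cons_val, mul_inv_eq_one] at hr
    obtain ⟨r0, r1, r2, r3, r4, -⟩ := hr
    obtain ⟨b1, b2⟩ := hr2 J u h w r1 r0
    have b3 : h ^ orderOf ζ = 1 := b2 _ (by
      rw [← r2]
      exact mul_mem (Subgroup.subset_closure ⟨_, rfl⟩)
        (inv_mem (D.wd_mem (fun m _ => Subgroup.subset_closure (Set.mem_range_self m)) _)))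
    rw [b3, mul_inv_eq_one] at r2
    obtain ⟨a1, a2, a3⟩ := D.main_cj (fun a _ b _ => b1 a b) r0 r2
    have a4 : D.wd (cj h u) 1 = u := by simpa using a3 0
    have w2 : w ^ 2 = 1 := by
      have : w = (u * w) * u * (u * w)⁻¹ := by rw [← r4]; group
      rw [this, conj_pow, r0]; simp
    let E : BD F J (ζ ^ 2) := ⟨D.wd (cj h u), h, w, a1, pow_ne_zero _ hζ0, a2,
      eq_inv_of_mul_eq_one_left r3, w2 ▸ one_mem _⟩
    refine inj_of_bruhat hζ0 (MonoidHom.id _) ker_id E (fun a ha => ?_)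
      (fun H h1 h2 h3 => top_of_range hgen H (a4 ▸ h1 1) h2 h3) π
      (fun a => ?_) (hπ 1) (hπ 2) (fun k hk => ?_)
    · obtain ⟨m, rfl⟩ := hζ2 a ha
      have e : E.Big (E.w * E.X 1 * E.w⁻¹) := by
        refine ⟨E.X 1, E.X_mem _, E.X 1, E.X_mem _, ?_⟩
        have hw : w⁻¹ = w := by rw [inv_eq_iff_mul_eq_one, ← sq, w2]
        simp only [E, a4, hw, r4]
      simpa using BD.big_shift e m
    · change π (D.wd (cj h u) a) = slx a
      rw [map_wd_cj, show π h = hm hζ0 from hπ 1, show π u = slx 1 from hπ 0]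
      exact D.wd_model slx_isAdd (fun m _ => hcj m) a
    · rw [MonoidHom.id_apply, hm_zpow] at hk
      have e : ζ ^ k = 1 := by
        have := congrArg (fun g : Matrix.SpecialLinearGroup (Fin 2) F => g 0 0) hk
        simpa [coe_hm] using this
      obtain ⟨l, rfl⟩ := zpow_dvd hζ0 e
      change h ^ _ = 1
      rw [zpow_mul, zpow_natCast, b3, one_zpow]

theorem hasPr_PSL_two_even (F : Type*) [Field F] [Finite F] [CharP F 2] :
    HasPr (Matrix.ProjectiveSpecialLinearGroup (Fin 2) F) 3 5 := by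
  obtain ⟨g, hg⟩ := hasPr_SL_two_even F
  have := hg.quot (QuotientGroup.mk' (Subgroup.center _)) (QuotientGroup.mk'_surjective _) [] (by
    rw [QuotientGroup.ker_mk']
    simp only [List.not_mem_nil, Set.ofPred_false, Subgroup.normalClosure_empty]
    rw [eq_bot_iff]; intro g hg
    obtain ⟨r, h1, hr⟩ := Matrix.SpecialLinearGroup.mem_center_iff.1 hg
    have : (r - 1) ^ 2 = 0 := by
      rw [Fintype.card_fin] at h1
      linear_combination h1 + (1 - r) * (CharTwo.two_eq_zero : (2 : F) = 0)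
    obtain rfl : r = 1 := sub_eq_zero.1 (pow_eq_zero_iff two_ne_zero |>.1 this)
    exact Subtype.ext (by simpa using hr.symm))
  exact ⟨_, this⟩

theorem hasPr_SL_two (F : Type*) [Field F] [Finite F] :
    HasPr (Matrix.SpecialLinearGroup (Fin 2) F) 3 9 := by
  obtain ⟨p, hchar⟩ := CharP.exists F
  have hp : Fact p.Prime := ⟨CharP.char_is_prime F p⟩
  by_cases h2 : p = 2
  · subst h2; exact (hasPr_SL_two_even F).mono (by norm_num)
  · exact hasPr_SL_two_odd F h2

theorem hasPr_PSL_two (F : Type*) [Field F] [Finite F] :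
    HasPr (Matrix.ProjectiveSpecialLinearGroup (Fin 2) F) 3 9 := by
  obtain ⟨p, hchar⟩ := CharP.exists F
  have hp : Fact p.Prime := ⟨CharP.char_is_prime F p⟩
  by_cases h2 : p = 2
  · subst h2; exact (hasPr_PSL_two_even F).mono (by norm_num)
  · exact hasPr_PSL_two_odd F h2

end H77.Pres
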