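import Cfsg.Agent.Lib.Pres.Borel3
import Cfsg.Agent.Lib.Pres.Rank1
import Cfsg.Agent.Lib.MinDeg8.U3More
import Cfsg.Agent.Lib.Stein.SUM

/-!
# A presentation of `SU_3(q)` on three generators
-/

set_option autoImplicit false

open scoped commutatorElement

namespace H77.PU3

open Cfsg H40 H11.U H8.U3 Polynomial
open H77.Pres hiding cj Fr

theorem span_cube {F : Type*} [Field F] [Finite F] (κ ξ : F)
    (h : ∀ L : Subfield F, κ ∈ L → Nat.card F < Nat.card L ^ 4) :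
    ξ ^ 3 ∈ AddSubgroup.closure {x | ∃ i < 3, ∃ m, κ ^ m * ξ ^ i = x} := by
  let L : Subfield F := (Subring.closure {κ}).toSubfield (fun x hx => by
    by_cases h0 : x = 0
    · rw [h0, inv_zero]; exact zero_mem _
    · obtain ⟨n, hn, e⟩ := isOfFinOrder_iff_pow_eq_one.1 (isOfFinOrder_of_finite (Units.mk0 x h0))
      have e' : x ^ n = 1 := by simpa using congrArg Units.val e
      rw [show x⁻¹ = x ^ (n - 1) from inv_eq_of_mul_eq_one_right (by
        rw [← pow_succ', Nat.sub_add_cancel hn, e'])]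
      exact pow_mem hx _)
  have hd : Module.finrank L F < 4 := by
    have h1 := h L (Subring.subset_closure rfl)
    rw [Module.natCard_eq_pow_finrank (K := L)] at h1
    exact (Nat.pow_lt_pow_iff_right Finite.one_lt_card).1 h1
  have hi : IsIntegral L ξ := IsIntegral.of_finite L ξ
  have h3 : (X ^ 3 %ₘ minpoly L ξ).natDegree < 3 :=
    (natDegree_modByMonic_lt _ (minpoly.monic hi) (minpoly.ne_one L ξ)).trans_le
      ((minpoly.natDegree_le ξ).trans (by omega))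
  have e := aeval_modByMonic_eq_self_of_root (p := X ^ 3) (minpoly.aeval L ξ)
  rw [aeval_eq_sum_range' h3, map_pow, aeval_X] at e
  rw [← e]
  refine sum_mem fun i hi => ?_
  rw [Algebra.smul_def]
  have : ∀ c ∈ AddSubgroup.closure (Submonoid.closure {κ} : Set F), c * ξ ^ i ∈
      AddSubgroup.closure {x | ∃ i < 3, ∃ m, κ ^ m * ξ ^ i = x} := by
    intro c hc
    induction hc using AddSubgroup.closure_induction with
    | mem a ha =>
      obtain ⟨m, rfl⟩ := Submonoid.mem_closure_singleton.1 ha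
      exact AddSubgroup.subset_closure ⟨i, Finset.mem_range.1 hi, m, rfl⟩
    | zero => rw [zero_mul]; exact zero_mem _
    | add a b _ _ ha hb => rw [add_mul]; exact add_mem ha hb
    | neg a _ ha => rw [neg_mul]; exact neg_mem ha
  exact this _ (Subring.mem_closure_iff.1 ((X ^ 3 %ₘ minpoly L ξ).coeff i).2)

variable {F : Type*} [Field F] [Fintype F] {q : ℕ} [IsSq F q]

theorem mul_of_rule (A : F → Prop) (h0 : ∀ s, cj q s = s → A s)
    (h1 : ∀ s a, cj q s = s → s ≠ 0 → A a → A (s * a))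
    (h2 : ∀ s a, cj q s = s → s ≠ 0 → a ≠ 0 → A a → A (a⁻¹ + s⁻¹) → A (a + s)) {a b : F}
    (ha : A a) (hb : A b) : A (a * b) := by
  by_cases e : cj q a = a
  · by_cases a0 : a = 0
    · rw [a0, zero_mul]; exact h0 0 (map_zero _)
    · exact h1 a b e a0 hb
  have a0 : a ≠ 0 := by rintro rfl; exact e (map_zero _)
  obtain ⟨s, t, hs, ht, rfl⟩ := exists_fixed_comb (q := q) (a := 1) (b := a⁻¹) (by
    rw [map_one, map_inv₀, one_mul, mul_one]; exact fun h => e (inv_injective h)) b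
  by_cases s0 : s = 0
  · rw [s0, show a * (0 * 1 + t * a⁻¹) = t by field_simp; ring]; exact h0 t ht
  by_cases t0 : t = 0
  · rw [t0, show a * (s * 1 + 0 * a⁻¹) = s * a by ring]; exact h1 s a hs s0 ha
  have := h1 s _ hs s0 (h2 (t / s) a (by rw [map_div₀, hs, ht]) (div_ne_zero t0 s0) a0 ha (by
    have := h1 t⁻¹ _ (by rw [map_inv₀, ht]) (inv_ne_zero t0) hb
    convert this using 1
    field_simp; ring))
  convert this using 1
  field_simp

local notation "V" => (Fin 3 → F)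
set_option hygiene false in
local notation "G" => SU 3 F q
set_option hygiene false in
local notation "⟪" u "," v "⟫" => hermForm 3 F q u v

variable {e w f : Fin 3 → F} (h : Fr q e w f)
include h

theorem eq_one_of {u : G} (h1 : u ∈ Fx q e) (h2 : u ∈ St q f) : u = 1 := by
  by_contra h0
  obtain ⟨a, ha⟩ := eq_smul_of_fix h.iso_e h.iso_f h1 h0 h2
  have := h.fe
  rw [ha, form_smul_left, h.ee, mul_zero] at this
  exact zero_ne_one this

theorem exists_weyl : ∃ n : G, ac n e = f ∧ ac n w = -w ∧ ac n f = e := by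
  obtain ⟨g, h1, h2⟩ := exists_su_pair le_rfl one_ne_zero h.ee h.ff h.ff h.ee h.fe h.ef
  change ac g e = f at h1
  change ac g f = e at h2
  obtain ⟨a, b, c, h3⟩ := h.exists_comb (ac g w)
  have e1 := form_ac g w e
  have e2 := form_ac g w f
  rw [h3, h1, h.form_f, h.we] at e1
  rw [h3, h2, h.form_e, h.wf] at e2
  have := h.det_eq (g := g) (a₁ := 0) (a₂ := 0) (a₃ := 1) (c₁ := 1) (c₂ := 0) (c₃ := 0)
    (by simp [h1]) h3 (by simp [h2])
  refine ⟨g, h1, ?_, h2⟩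
  rw [h3, e1, e2, show b = -1 by linear_combination -this]; simp

theorem bruhat {n : G} (h1 : ac n e = f) (g : G) : Cell (St q e).subtype n g := by
  obtain ⟨a, b, c, h3⟩ := h.exists_comb (ac g e)
  by_cases c0 : c = 0
  · exact Or.inl ⟨⟨g, h.eq_smul_of_perp (by rw [form_ac, h.ee]) (by rw [h3, h.form_e, c0])⟩, rfl⟩
  have e1 := form_ac g e e
  rw [h3, h.form_form, h.ee] at e1
  have c1 : cj q c ≠ 0 := cj_ne_zero.2 c0
  obtain ⟨u, hu, hx, hc⟩ := h.exists_Q (x := b / c) (c := a / c) (by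
    simp only [map_div₀]; field_simp; linear_combination e1)
  refine Or.inr ⟨⟨u, Fx_le_St e hu⟩, ⟨(u * n)⁻¹ * g, c, ?_⟩,
    (mul_inv_cancel_left (u * n) g).symm⟩
  rw [ac_mul, ← ac_inv_ac (u * n) (c • e), ac_smul, ac_mul, h1, h.Q_f hu, hx, hc, h3]
  congr 1
  match_scalars <;> field_simp

theorem iso_of {b : G} {a c x : F} (hb : ac b f = a • (c • e + x • w + f)) :
    a ≠ 0 ∧ c + cj q c + x * cj q x = 0 := by
  have a0 : a ≠ 0 := by rintro rfl; exact ac_ne_zero b h.f_ne (by rw [hb, zero_smul])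
  have e1 := form_ac b f f
  rw [hb, form_smul_left, form_smul_right, h.ff, ← one_smul F f, h.form_form] at e1
  refine ⟨a0, ?_⟩
  have := (mul_eq_zero.1 ((mul_eq_zero.1 e1).resolve_left a0)).resolve_left (cj_ne_zero.2 a0)
  rw [map_one] at this
  linear_combination this

theorem all_good {ζ δ x0 : F} (hζ0 : ζ ≠ 0) (hζ : ∀ a : F, a ≠ 0 → ∃ m : ℕ, ζ ^ m = a)
    (hδ0 : δ ≠ 0) (hδ : cj q δ = -δ) (hx0 : x0 * cj q x0 = -(δ * ζ + cj q (δ * ζ))) {n : G}
    (n1 : ac n e = f) (n2 : ac n w = -w) (n3 : ac n f = e) {t : St q e} (t1 : ac t.1 e = ζ • e)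
    (t2 : t.1 ∈ St q f) {J : Type*} [Group J] (φ : St q e →* J) (v : J) (π : J →* G)
    (π1 : ∀ x, π (φ x) = x) (π2 : π v = n) (hv : v * v = 1) (g1 : Good φ v t)
    (g2 : ∃ b : St q e, ac b.1 f = δ • e + (0 : F) • w + f ∧ Good φ v b)
    (g3 : ∀ j < 3, ∃ b : St q e, ac b.1 f = (δ * ζ) • e + (x0 * (ζ / cj q ζ) ^ j) • w + f ∧
      Good φ v b) (b : St q e) : Good φ v b := by
  have big : ∀ {a a1 a2 : St q e}, v * φ a * v = φ a1 * v * φ a2 →
      n * a * n = a1 * n * a2 := fun {a a1 a2} H => by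
    simpa only [map_mul, π1, π2] using congrArg π H
  have bigf : ∀ {a a1 a2 : St q e}, v * φ a * v = φ a1 * v * φ a2 →
      ∃ l : F, ac n (ac a.1 f) = l • ac a1.1 f := fun {a a1 a2} H => by
    obtain ⟨l, hl⟩ := a2.2
    have := congrArg (fun g => ac g e) (big H)
    exact ⟨l, by simpa only [ac_mul, n1, hl, ac_smul] using this⟩
  have hT : ∀ s : St q e, s.1 ∈ St q f → ∃ c, v * φ s * v = φ c := by
    intro s hs
    obtain ⟨c, hc⟩ : ∃ c, v * φ t * v = φ c := by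
      refine g1.resolve_right ?_
      rintro ⟨a1, a2, H⟩
      obtain ⟨l, hl⟩ := bigf H
      obtain ⟨k, hk⟩ := t2
      obtain ⟨m, hm⟩ := a1.2
      have := congrArg (fun x => ⟪x, ac a1.1 e⟫) hl
      simp only [form_smul_left, form_ac, h.fe] at this
      rw [hk, ac_smul, n3, hm, form_smul_left, form_smul_right, h.ee] at this
      rw [show l = 0 by simpa using this.symm, zero_smul] at hl
      exact ac_ne_zero _ (ac_ne_zero _ h.f_ne) hl
    obtain ⟨l, hl⟩ := s.2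
    obtain ⟨k, rfl⟩ := hζ l (ne_zero_of_ac h.e_ne hl)
    have : (t.1 ^ k)⁻¹ * s.1 = 1 := eq_one_of h (by
      rw [mem_Fx, ac_mul, hl, ← ac_pow t1, ac_inv_ac]) (mul_mem (inv_mem (pow_mem t2 k)) hs)
    obtain rfl : t ^ k = s := Subtype.ext (inv_mul_eq_one.1 this)
    refine ⟨c ^ k, ?_⟩
    rw [map_pow, map_pow, ← hc]
    have := conj_pow (a := v) (b := φ t) (i := k)
    rw [inv_eq_of_mul_eq_one_right hv] at this
    exact this.symm
  let P : V → Prop := fun x => ∀ (b : St q e) (a : F), ac b.1 f = a • x → Good φ v b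
  have k1 : ∀ {b : St q e} {x : V}, Good φ v b → ac b.1 f = x → P x := by
    rintro b _ hb rfl c a hc
    rw [← mul_inv_cancel_left b c]
    exact hb.right hv (hT _ ⟨a, by
      rw [Subgroup.coe_mul, ac_mul, hc, ac_smul, Subgroup.coe_inv, ac_inv_ac]⟩)
  have k2 : ∀ {x : V} (s : St q e), s.1 ∈ St q f → P x → P (ac s.1 x) := fun s hs H b a hb => by
    rw [← mul_inv_cancel_left s b]
    exact (H _ a (by rw [Subgroup.coe_mul, ac_mul, hb, ac_smul, Subgroup.coe_inv, ac_inv_ac])).left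
      hv (hT s hs)
  have k3 : ∀ {x : V} (l : F), P x → P (l • x) := fun l H b a hb => H b (a * l) (by rw [hb, smul_smul])
  have k4 : ∀ {c x : F} (l : F), l ≠ 0 → P (c • e + x • w + f) →
      P ((l * cj q l * c) • e + (cj q l ^ 2 / l * x) • w + f) := fun {c x} l hl H => by
    obtain ⟨s, s1, s2, s3⟩ := h.exists_torus hl
    have : P (cj q l • ac s _) := k3 (cj q l) (k2 ⟨s, l, s1⟩ ⟨_, s3⟩ H)
    rw [ac_add, ac_add, ac_smul, ac_smul, s1, s2, s3] at this
    have hl' : cj q l ≠ 0 := cj_ne_zero.2 hl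
    convert this using 1
    match_scalars <;> field_simp
  let A : F → Prop := fun a => ∀ x : F, P ((δ * a) • e + x • w + f)
  have a1 : ∀ s a, cj q s = s → s ≠ 0 → A a → A (s * a) := fun s a hs s0 H x => by
    obtain ⟨l, rfl⟩ := exists_norm_eq hs
    have hl : l ≠ 0 := left_ne_zero_of_mul s0
    have hl' : cj q l ≠ 0 := cj_ne_zero.2 hl
    have := k4 l hl (H (l / cj q l ^ 2 * x))
    convert this using 4
    · ring
    · field_simp
  have a0 : ∀ s, cj q s = s → A s := fun s hs => by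
    have : ∀ s, cj q s = s → P ((δ * s) • e + (0 : F) • w + f) → A s := fun s hs H x b a hb => by
      have e1 := (iso_of h hb).2
      rw [map_mul, hs, hδ] at e1
      obtain rfl : x = 0 := by
        have : x * cj q x = 0 := by linear_combination e1
        simpa using this
      exact H b a hb
    by_cases s0 : s = 0
    · refine this s hs (k1 (b := 1) (Or.inl ⟨1, by simp [hv]⟩) (by simp [s0]))
    · obtain ⟨b, hb, hb'⟩ := g2
      simpa using a1 s 1 hs s0 (this 1 (map_one _) (k1 hb' (by rw [hb, mul_one])))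
  have a2 : ∀ s a, cj q s = s → s ≠ 0 → a ≠ 0 → A a → A (a⁻¹ + s⁻¹) → A (a + s) := by
    intro s a hs s0 a0' H1 H2 x b l hb
    have zs : ∀ c, tv q e c ∈ St q e := fun c => Fx_le_St e (tv_mem_Fx c h.ee)
    have tz : cj q (δ * s) = -(δ * s) := by rw [map_mul, hs, hδ]; ring
    have tz1 : cj q (-(δ * s)) = - -(δ * s) := by rw [map_neg, tz]
    have tz2 : cj q (δ * s)⁻¹ = -(δ * s)⁻¹ := by rw [map_inv₀, tz, inv_neg]
    have tz3 : cj q (-(δ * s)⁻¹) = - -(δ * s)⁻¹ := by rw [map_neg, tz2]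
    let z : St q e := ⟨_, zs (δ * s)⟩
    have e1 : ac (z⁻¹ * b).1 f = l • ((δ * a) • e + x • w + f) := by
      rw [Subgroup.coe_mul, ac_mul, hb, Subgroup.coe_inv, tv_inv, ac_smul, ac_tv h.ee tz1,
        ← one_smul F f, h.form_e]
      congr 1; module
    rw [← mul_inv_cancel_left z b]
    refine Good.mul hv (a0 s hs 0 z 1 (by rw [one_smul]; exact h.tv_f tz)) (H1 x _ l e1) ?_
    intro a1' a2' b1 b2 H3 H4
    obtain ⟨m, hm⟩ := bigf H4
    have m0 : m ≠ 0 := by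
      rintro rfl
      exact ac_ne_zero _ (ac_ne_zero _ h.f_ne) (by rw [hm, zero_smul])
    have H5 := a1 (δ ^ 2)⁻¹ _ (by rw [map_inv₀, map_pow, hδ, neg_sq])
      (inv_ne_zero (pow_ne_zero _ hδ0)) H2 (-x / (δ * a))
    let y : St q e := ⟨_, zs (δ * s)⁻¹⟩
    have H6 := k2 (a2' * y⁻¹) ?_ H5
    · refine H6 _ (m⁻¹ * l * (δ * a)) ?_
      rw [Subgroup.coe_mul, Subgroup.coe_mul, ac_mul, ac_mul, ← ac_smul, Subgroup.coe_inv, tv_inv,
        ac_tv h.ee tz3, ← one_smul F f, h.form_e, one_smul, ← inv_smul_smul₀ m0 (ac b1.1 f), ← hm]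
      congr 1
      rw [e1, ac_smul, ac_add, ac_add, ac_smul, ac_smul, n1, n2, n3]
      match_scalars <;> field_simp <;> ring
    · obtain ⟨k, hk⟩ := (a1'⁻¹).2
      refine ⟨-(δ * s)⁻¹ * k, ?_⟩
      have nn : n * n = 1 := by rw [← π2, ← map_mul, hv, map_one]
      have e2 : a2'.1 = n * (a1'⁻¹).1 * (n * z * n) := by
        rw [big H3, Subgroup.coe_inv]
        calc _ = (n * n) * a2'.1 := by rw [nn, one_mul]
          _ = _ := by group
      rw [Subgroup.coe_mul, ac_mul, Subgroup.coe_inv, tv_inv, h.tv_f tz3, e2]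
      simp only [ac_mul, ac_add, ac_smul, n1, n2, n3, zero_smul, add_zero]
      rw [show ac z.1 e = e from tv_mem_Fx _ h.ee, h.tv_f tz]
      simp only [ac_add, ac_smul, n1, n2, n3, zero_smul, add_zero, hk]
      match_scalars <;> field_simp <;> ring
  have a3 : A ζ := by
    intro x b a hb
    have e1 := (iso_of h hb).2
    have hζ' : cj q ζ ≠ 0 := cj_ne_zero.2 hζ0
    obtain ⟨m, rfl⟩ : ∃ m : ℕ, x = x0 * (ζ / cj q ζ) ^ m := by
      by_cases x00 : x0 = 0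
      · rw [x00, zero_mul] at hx0
        have : x * cj q x = 0 := by linear_combination e1 - hx0
        exact ⟨0, by simpa [x00] using this⟩
      have x01 : cj q x0 ≠ 0 := cj_ne_zero.2 x00
      obtain ⟨d, d0, hd⟩ := exists_div_cj_eq (q := q) (a := x / x0) (by
        rw [map_div₀]; field_simp; linear_combination e1 - hx0)
      obtain ⟨m, rfl⟩ := hζ d d0
      refine ⟨m, ?_⟩
      rw [map_pow] at hd
      rw [div_pow]
      field_simp at hd ⊢
      linear_combination hd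
    obtain ⟨c, hc, hc'⟩ := g3 (m % 3) (Nat.mod_lt _ (by norm_num))
    have := k4 ((cj q ζ / ζ) ^ (m / 3)) (pow_ne_zero _ (div_ne_zero hζ' hζ0)) (k1 hc' hc)
    refine this b a ?_
    rw [hb, map_pow, map_div₀, cj_cj, ← mul_pow, show cj q ζ / ζ * (ζ / cj q ζ) = 1 by field_simp,
      one_pow, one_mul, ← inv_div ζ, inv_pow, div_inv_eq_mul]
    conv_lhs => rw [← Nat.div_add_mod m 3]
    congr 4; ring
  have a4 : ∀ a, A a := fun a => by
    by_cases e0 : a = 0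
    · exact a0 a (by rw [e0, map_zero])
    obtain ⟨m, rfl⟩ := hζ a e0
    clear e0
    induction m with
    | zero => exact a0 _ (by simp)
    | succ m ih => rw [pow_succ]; exact mul_of_rule A a0 a1 a2 ih a3
  obtain ⟨l, hl⟩ := b.2
  obtain ⟨l0, -, x, c, -, h3⟩ := h.shape hl
  have hl' : cj q l ≠ 0 := cj_ne_zero.2 l0
  refine a4 (c * cj q l / δ) (x * cj q l) b (cj q l)⁻¹ ?_
  rw [h3]
  match_scalars <;> field_simp

theorem pr_St (hq : q ≠ 2) {ζ : F} (hζ0 : ζ ≠ 0) (hζ : ∀ a : F, a ≠ 0 → ∃ m : ℕ, ζ ^ m = a)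
    (ho : orderOf ζ = Nat.card F - 1) {t : St q e} (t1 : ac t.1 e = ζ • e) (t2 : t.1 ∈ St q f) :
    ∃ u : St q e, Pr ![u, t] 15 := by
  obtain ⟨p, k, hp, hc, -, -⟩ := exists_char_pow F q
  have : Fact p.Prime := ⟨hp⟩
  have q2 := two_le_q F q
  have hζ' : cj q ζ ≠ 0 := cj_ne_zero.2 hζ0
  have hF : Nat.card F = q ^ 2 := by rw [Nat.card_eq_fintype_card, IsSq.card_eq (q := q)]
  have cq : ∀ x : F, x ≠ 0 → x ^ (q - 1) = cj q x / x := fun x hx => by
    rw [eq_div_iff hx, ← pow_succ, Nat.sub_add_cancel (by omega), cj_apply (q := q)]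
  have hdiv : ∀ m, (cj q ζ / ζ) ^ m = 1 → q + 1 ∣ m := fun m hm => by
    rw [← cq ζ hζ0, ← pow_mul, ← orderOf_dvd_iff_pow_eq_one, ho, hF,
      show q ^ 2 - 1 = (q - 1) * (q + 1) by rw [mul_comm]; exact Nat.sq_sub_sq q 1] at hm
    exact Nat.dvd_of_mul_dvd_mul_left (by omega) hm
  obtain ⟨ξ, hξ⟩ : ∃ ξ, ξ = cj q ζ ^ 2 / ζ := ⟨_, rfl⟩
  have ξ0 : ξ ≠ 0 := hξ ▸ div_ne_zero (pow_ne_zero _ hζ') hζ0
  have hκ : (cj q ζ / ζ) ^ 3 * (cj q ξ / ξ) = 1 := by
    rw [hξ, map_div₀, map_pow, cj_cj]; field_simp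
  have hξ' : ξ - cj q ξ ≠ 0 := fun e0 => by
    rw [← sub_eq_zero.1 e0, div_self ξ0, mul_one] at hκ
    have h3 := hdiv 3 hκ
    have := Nat.le_of_dvd (by norm_num) h3
    omega
  have hU : ∀ a : F, ∃ u : St q e, u.1 ∈ Fx q e ∧ xx q w f u.1 = a := fun a => by
    obtain ⟨c, hc⟩ := exists_trace_eq (q := q) (c := -(a * cj q a)) (by rw [map_neg, cj_norm])
    obtain ⟨u, h1, h2, -⟩ := h.exists_Q (x := a) (c := c) (by rw [hc, neg_add_cancel])
    exact ⟨⟨u, Fx_le_St e h1⟩, h1, h2⟩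
  choose U U1 U2 using hU
  have tz : ∀ s : fixedField F q, cj q (s * (cj q ξ - ξ)) = -(s * (cj q ξ - ξ)) := fun s => by
    rw [map_mul, map_sub, cj_cj, show cj q (s : F) = s from s.2]; ring
  let zz : fixedField F q → St q e := fun s =>
    ⟨tv q e (s * (cj q ξ - ξ)), Fx_le_St e (tv_mem_Fx _ h.ee)⟩
  have hzz : ∀ s, (zz s).1 = tv q e (s * (cj q ξ - ξ)) := fun _ => rfl
  have hξ'' : cj q ξ - ξ ≠ 0 := fun e0 => hξ' (by linear_combination -e0)
  have same : ∀ u u' : St q e, u.1 ∈ Fx q e → u'.1 ∈ Fx q e → xx q w f u.1 = xx q w f u'.1 →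
      ∃ s, u = u' * zz s := fun u u' h1 h2 h3 => by
    have m := mul_mem (inv_mem h2) h1
    have x0 : xx q w f (u'.1⁻¹ * u.1) = 0 := by
      rw [h.xx_mul (inv_mem h2) h1, h.xx_inv h2, h3, neg_add_cancel]
    refine ⟨⟨cc q f (u'.1⁻¹ * u.1) / (cj q ξ - ξ), ?_⟩, Subtype.ext ?_⟩
    · rw [mem_fixedField, map_div₀, h.cj_cc m x0, map_sub, cj_cj, ← neg_sub, neg_div_neg_eq]
    · rw [Subgroup.coe_mul, hzz, div_mul_cancel₀ _ hξ'', ← h.eq_tv m x0, mul_inv_cancel_left]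
  have tU : ∀ a, t.1 * (U a).1 * t.1⁻¹ ∈ Fx q e := fun a => h.conj_mem_Fx' t1 (U1 a)
  have tX : ∀ a, xx q w f (t.1 * (U a).1 * t.1⁻¹) = ξ * a := fun a => by
    rw [h.xx_conj t1 (U1 a), U2, hξ]
  refine ⟨U 1, pr_borel p (fixedField F q).subtype (ν := ⟨ζ * cj q ζ, cj_norm ζ⟩) ?_ (ξ := ξ)
    (n1 := q + 1) (n2 := q - 1) (N := q ^ 2 - 1) (sq_sub_pos F q) ?_ ?_ ?_ ?_ t zz U ?_ ?_ ?_ ?_ ?_
    ?_ ?_ ?_ ?_⟩
  · rintro ⟨a, ha⟩ a0
    obtain ⟨l, rfl⟩ := exists_norm_eq ha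
    obtain ⟨m, rfl⟩ := hζ l (by rintro rfl; exact a0 (Subtype.ext (zero_mul _)))
    exact ⟨m, Subtype.ext (by simp [mul_pow])⟩
  · rw [← mul_cj, hξ, map_div₀, map_pow, cj_cj]
    change _ = ζ * cj q ζ
    field_simp
  · refine Subtype.ext ?_
    change (ζ * cj q ζ) ^ (q - 1) = 1
    rw [cq _ (mul_ne_zero hζ0 hζ'), cj_norm, div_self (mul_ne_zero hζ0 hζ')]
  · intro y
    obtain ⟨s, r, hs, hr, rfl⟩ := exists_fixed_comb (q := q) (a := 1) (b := ξ) (by
      rw [map_one, one_mul, mul_one]; exact sub_ne_zero.1 hξ'') y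
    exact ⟨⟨s, hs⟩, ⟨r, hr⟩, by simp⟩
  · refine span_cube _ _ fun L hL => ?_
    have hκ0 : (⟨_, hL⟩ : L) ≠ 0 := fun e0 => pow_ne_zero _ ξ0 (congrArg Subtype.val e0)
    have := Fintype.ofFinite L
    have h1 := congrArg Subtype.val (FiniteField.pow_card_sub_one_eq_one _ hκ0)
    rw [← Nat.card_eq_fintype_card] at h1
    change (ξ ^ (q - 1)) ^ _ = 1 at h1
    have h2 := Nat.le_of_dvd (by have := Finite.one_lt_card (α := L); omega)
      (hdiv (3 * (Nat.card L - 1)) (by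
        have := congrArg (· ^ (Nat.card L - 1)) hκ
        simp only [mul_pow, ← cq ξ ξ0, h1, mul_one, one_pow] at this
        rw [pow_mul, this]))
    rw [hF, show 4 = 2 * 2 from rfl, pow_mul]
    refine Nat.pow_lt_pow_left ?_ (by norm_num)
    obtain ⟨y, hy⟩ : ∃ y, Nat.card L = y + 1 := ⟨Nat.card L - 1, by omega⟩
    rw [hy, Nat.add_sub_cancel] at h2
    rw [hy]
    nlinarith
  · intro a b
    refine Subtype.ext ?_
    rw [Subgroup.coe_mul, hzz, hzz, hzz, tv_mul h.ee (tz a) (tz b), ← add_mul]; rfl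
  · intro s
    refine Subtype.ext ?_
    rw [Subgroup.coe_mul, Subgroup.coe_mul, Subgroup.coe_inv, hzz, hzz, conj_tv', t1,
      tv_smul h.ee (tz s), ← mul_assoc]; rfl
  · intro a s
    refine Subtype.ext ?_
    rw [Subgroup.coe_mul, Subgroup.coe_mul, hzz, ← mul_inv_eq_iff_eq_mul, conj_tv', U1 a]
  · intro a b
    exact same _ _ (U1 _) (mul_mem (U1 a) (U1 b))
      (by rw [Subgroup.coe_mul, h.xx_mul (U1 a) (U1 b), U2, U2, U2])
  · intro a
    exact same _ _ (tU a) (U1 _) (by rw [U2]; exact tX a)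
  · refine Subtype.ext ?_
    have e1 : (⁅U 1, Pres.cj t (U 1) 1⁆ : St q e).1 =
        (U 1).1 * (t.1 * (U 1).1 * t.1⁻¹) * (t.1 * (U 1).1 * t.1⁻¹ * (U 1).1)⁻¹ := by
      simp [Pres.cj, commutatorElement_def, mul_assoc]
    have h1 := mul_mem (U1 1) (tU 1)
    have h2 := mul_mem (tU 1) (U1 1)
    rw [e1, hzz, h.eq_tv (mul_mem h1 (inv_mem h2)) (by
      rw [h.xx_mul h1 (inv_mem h2), h.xx_inv h2, h.xx_mul (U1 1) (tU 1), h.xx_mul (tU 1) (U1 1)]
      ring)]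
    congr 1
    rw [h.cc_mul h1 (inv_mem h2), h.cc_inv h2, h.xx_inv h2, h.xx_mul (U1 1) (tU 1),
      h.xx_mul (tU 1) (U1 1), h.cc_mul (U1 1) (tU 1), h.cc_mul (tU 1) (U1 1), tX, U2]
    simp
    ring
  · exact Subtype.ext (eq_one_of h (pow_mem_Fx h.e_ne t.2) (pow_mem t2 _))
  · rw [card_fixedField, card_St h.iso_e]
  · intro g
    obtain ⟨l, hl⟩ := g.2
    obtain ⟨k, rfl⟩ := hζ l (ne_zero_of_ac h.e_ne hl)
    obtain ⟨s, hs⟩ := same (g * (t ^ k)⁻¹) (U _) (by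
      rw [mem_Fx, Subgroup.coe_mul, Subgroup.coe_inv, Subgroup.coe_pow, ac_mul,
        ac_inv_of (pow_ne_zero k hζ0) (ac_pow t1 k), ac_smul, hl, inv_smul_smul₀ (pow_ne_zero k hζ0)])
      (U1 _) (U2 _).symm
    exact ⟨_, s, k, by rw [← hs, inv_mul_cancel_right]⟩

omit h

variable (F q) in
/-- `SU_3(q)`, `q ≠ 2`, has a presentation with 3 generators and 21 relations. -/
theorem hasPr_SU_three (hq : q ≠ 2) : HasPr (SU 3 F q) 3 21 := by
  obtain ⟨e, he⟩ := exists_iso F q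
  obtain ⟨w, f, h⟩ := he.exists_fr
  obtain ⟨ζ, hζ0, hζ, ho⟩ := exists_prim F
  obtain ⟨t, t1, -, t2⟩ := h.exists_torus hζ0
  obtain ⟨u, hu⟩ := pr_St h hq hζ0 hζ ho (t := ⟨t, ζ, t1⟩) t1 ⟨_, t2⟩
  obtain ⟨n, n1, n2, n3⟩ := exists_weyl h
  obtain ⟨δ, hδ0, hδ⟩ := exists_trace_zero F q
  obtain ⟨x0, hx0⟩ := exists_norm_eq (q := q) (c := -(δ * ζ + cj q (δ * ζ)))
    (by rw [map_neg, cj_trace])
  have hQ : ∀ x c : F, c + cj q c + x * cj q x = 0 →
      ∃ b : St q e, ac b.1 f = c • e + x • w + f := fun x c hc => by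
    obtain ⟨u, h1, rfl, rfl⟩ := h.exists_Q hc
    exact ⟨⟨u, Fx_le_St e h1⟩, h.Q_f h1⟩
  obtain ⟨z, hz⟩ := hQ 0 δ (by rw [hδ]; ring)
  have hζ' : cj q ζ ≠ 0 := cj_ne_zero.2 hζ0
  choose y hy using fun j : ℕ => hQ (x0 * (ζ / cj q ζ) ^ j) (δ * ζ) (by
    rw [map_mul _ x0, map_pow, map_div₀, cj_cj, mul_mul_mul_comm, ← mul_pow,
      show ζ / cj q ζ * (cj q ζ / ζ) = 1 by field_simp, hx0]; ring)
  refine (pr_rank_one (St q e) n ?_ ?_ (bruhat h n1) hu [⟨t, ζ, t1⟩, z, y 0, y 1, y 2] ?_).hasPr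
    (by simp) (by simp)
  · rintro ⟨a, ha⟩
    have := h.fe
    rw [← n1, ha, form_smul_left, h.ee, mul_zero] at this
    exact zero_ne_one this
  · exact h.ext (by rw [ac_mul, n1, n3, ac_one]) (by rw [ac_mul, n2, ac_neg, n2, neg_neg, ac_one])
      (by rw [ac_mul, n3, n1, ac_one])
  · intro J _ φ v π π1 π2 hv hL
    refine all_good h hζ0 hζ hδ0 hδ hx0 n1 n2 n3 (t := ⟨t, ζ, t1⟩) t1 ⟨_, t2⟩ φ v π π1 π2 hv
      (hL _ (by simp)) ⟨z, hz, hL _ (by simp)⟩ (fun j hj => ⟨y j, hy j, hL _ ?_⟩)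
    interval_cases j <;> simp

variable (F q) in
theorem hasPr_PSU_three (hq : q ≠ 2) : HasPr (PSU 3 F q) 3 22 :=
  (hasPr_SU_three F q hq).quot_cyclic _ (H63.St.SU.isCyclic_center (by norm_num))

end H77.PU3
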