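import Cfsg.Agent.Lib.Pres.SLn

/-!
# Steinberg's two generators for `SL_n(K)`
-/

set_option autoImplicit false

open scoped commutatorElement

namespace H77.Pres

open H63.St H63.St.SL

theorem mono_conj {Ω F : Type*} [Fintype Ω] [DecidableEq Ω] [Field F]
    {A : Matrix.SpecialLinearGroup Ω F} {σ : Equiv.Perm Ω} {c : Ω → F}
    (hc : ∀ a b, A.1 a b = if a = σ b then c b else 0)
    {M M' : Matrix.SpecialLinearGroup Ω F} (hM : ∀ a b, M'.1 (σ a) (σ b) * c b = c a * M.1 a b) :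
    A * M * A⁻¹ = M' := by
  rw [mul_inv_eq_iff_eq_mul]
  refine Subtype.ext ?_
  ext a b
  obtain ⟨a, rfl⟩ := σ.surjective a
  simp only [Matrix.SpecialLinearGroup.coe_mul, Matrix.mul_apply, hc]
  simp [hM]

theorem span_sq {F : Type*} [Field F] [Finite F] {c : F} (hc : c ≠ 0) (A : AddSubgroup F)
    (h : ∀ y, y ^ 2 * c ∈ A) (x : F) : x ∈ A := by
  obtain ⟨y, rfl⟩ : ∃ y, x = y * c := ⟨x * c⁻¹, by rw [inv_mul_cancel_right₀ hc]⟩
  by_cases h2 : (2 : F) = 0
  · have : CharP F 2 := CharTwo.of_one_ne_zero_of_two_eq_zero one_ne_zero h2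
    obtain ⟨z, rfl⟩ := FiniteField.isSquare_of_char_two (ringChar.eq F 2) y
    rw [← sq]; exact h z
  · have e : y * c = ((y + 1) / 2) ^ 2 * c - ((y - 1) / 2) ^ 2 * c := by field_simp; ring
    rw [e]; exact A.sub_mem (h _) (h _)

variable {K : Type*} [Field K] {n : ℕ} {w : Matrix.SpecialLinearGroup (Fin (n + 2)) K}
  (hw : (w : Matrix (Fin (n + 2)) (Fin (n + 2)) K) = Matrix.of (fun i j =>
    if j.val = i.val + 1 then 1 else if i.val = n + 1 ∧ j.val = 0 then (-1) ^ (n + 1) else 0))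
include hw

theorem w_mono (a b : Fin (n + 2)) :
    w.1 a b = if a = Equiv.subRight 1 b then (if b = 0 then (-1) ^ (n + 1) else 1) else 0 := by
  rw [hw, Matrix.of_apply, Equiv.subRight_apply]
  simp only [eq_sub_iff_add_eq, Fin.ext_iff, Fin.val_add, Fin.val_one, Fin.val_zero]
  have := a.2
  rcases (Nat.lt_succ_iff.1 this).lt_or_eq with h | h
  · rw [Nat.mod_eq_of_lt (by omega)]
    split_ifs <;> first | rfl | omega
  · rw [h, Nat.mod_self]
    have := b.2
    split_ifs <;> first | rfl | omega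

theorem top_of_w (H : Subgroup (Matrix.SpecialLinearGroup (Fin (n + 2)) K)) (hwH : w ∈ H)
    (hx : ∀ t, tv 0 1 t ∈ H) : H = ⊤ := by
  have hε : ∀ b : Fin (n + 2), (if b = 0 then (-1 : K) ^ (n + 1) else 1) ≠ 0 := fun b => by
    split_ifs <;> simp
  have step : ∀ i j, i ≠ j → (∀ t, tv i j t ∈ H) → ∀ t, tv (i - 1) (j - 1) t ∈ H := by
    intro i j e h t
    have := mono_conj (w_mono hw) (M := tv i j ((if i = 0 then (-1 : K) ^ (n + 1) else 1)⁻¹ * t *
      (if j = 0 then (-1 : K) ^ (n + 1) else 1))) (M' := tv (i - 1) (j - 1) t) (fun a b => by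
        have e' : i - 1 ≠ j - 1 := fun h => e (sub_left_injective h)
        have := hε i
        simp only [coe_tv e, coe_tv e', Equiv.subRight_apply, Matrix.add_apply, Matrix.smul_apply,
          Matrix.one_apply, Matrix.single_apply, sub_left_inj, smul_eq_mul]
        by_cases h1 : i = a ∧ j = b
        · obtain ⟨rfl, rfl⟩ := h1
          simp only [e, if_false, and_self, if_true, zero_add, mul_one]; field_simp
        · by_cases h2 : a = b
          · subst h2; simp [h1]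
          · simp [h1, h2])
    rw [← this]; exact H.mul_mem (H.mul_mem hwH (h _)) (H.inv_mem hwH)
  have ne1 : ∀ i : Fin (n + 2), i ≠ i + 1 := fun i h => by simp at h
  have h1 : ∀ i, ∀ t, tv i (i + 1) t ∈ H := by
    intro i
    induction i using Fin.reverseInduction with
    | last =>
      have := step 0 1 (by simp) hx
      have e : (0 : Fin (n + 2)) - 1 = Fin.last _ := by
        rw [sub_eq_iff_eq_add, Fin.last_add_one]
      rwa [e, sub_self, ← Fin.last_add_one] at this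
    | cast i ih =>
      have := step _ _ (ne1 _) ih
      rwa [add_sub_cancel_right, ← Fin.coeSucc_eq_succ, add_sub_cancel_right] at this
  have h2 : ∀ d : Fin (n + 2), d ≠ 0 → ∀ i t, tv i (i + d) t ∈ H := by
    intro d
    induction d using Fin.induction with
    | zero => simp
    | succ d ih =>
      intro _ i t
      by_cases hd : d.castSucc = 0
      · rw [← Fin.coeSucc_eq_succ, hd, zero_add]; exact h1 i t
      · have e := (st (Fin (n + 2)) K).c1 (i := i) (j := i + d.castSucc) (l := i + d.succ)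
          (by simpa using hd) (by simp [← Fin.coeSucc_eq_succ]) (by simp [Fin.succ_ne_zero]) t 1
        rw [mul_one] at e
        have e2 := h1 (i + d.castSucc) 1
        rw [add_assoc i, Fin.coeSucc_eq_succ] at e2
        change ⁅tv _ _ t, tv _ _ 1⁆ = tv _ _ t at e
        rw [← e, commutatorElement_def]
        exact H.mul_mem (H.mul_mem (H.mul_mem (ih hd i t) e2) (H.inv_mem (ih hd i t)))
          (H.inv_mem e2)
  refine H10.SL_eq_top_of_transvection_mem _ fun i j e c => ?_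
  have := h2 (j - i) (sub_ne_zero.2 e.symm) i c
  rwa [add_sub_cancel, tv_eq e] at this

theorem top_of_hw [Finite K] {k : K} (hk0 : k ≠ 0) (hk : ∀ a : K, a ≠ 0 → ∃ m : ℕ, k ^ m = a)
    (hk2 : k ^ 2 ≠ 1) (H : Subgroup (Matrix.SpecialLinearGroup (Fin (n + 2)) K))
    (h1 : hd hk0 0 1 ∈ H) (h2 : tv 0 1 1 * w ∈ H) : H = ⊤ := by
  have o : (0 : Fin (n + 2)) ≠ 1 := by simp
  have hA := tv_isAdd (F := K) o
  have e1 : w * hd hk0 0 1 * w⁻¹ = hd hk0 (0 - 1) 0 := by
    refine mono_conj (w_mono hw) (fun a b => ?_)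
    simp only [coe_hd, Matrix.diagonal_apply, Equiv.subRight_apply, sub_left_inj, ep,
      sub_eq_zero]
    by_cases hab : a = b
    · subst hab; simp [mul_comm]
    · simp [hab]
  obtain ⟨l, hl, hl1⟩ : ∃ l : K, (∀ t, hd hk0 (0 - 1 : Fin (n + 2)) 0 * tv 0 1 t *
      (hd hk0 (0 - 1) 0)⁻¹ = tv 0 1 (l * t)) ∧ l ≠ 1 := by
    refine ⟨_, hd_conj hk0 _ _ o, ?_⟩
    have : (0 - 1 : Fin (n + 2)) ≠ 0 := by simp
    simp only [ep, this, o, if_true, if_false]
    have hk1 : k ≠ 1 := by rintro rfl; simp at hk2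
    split_ifs
    · simpa [zpow_ofNat] using hk2
    · simpa using hk1
  have hh : ∀ t, hd hk0 (0 : Fin (n + 2)) 1 * tv 0 1 t * (hd hk0 0 1)⁻¹ = tv 0 1 (k ^ 2 * t) := by
    intro t
    rw [hd_conj hk0 _ _ o]; simp [ep, zpow_ofNat]
  have e2 : tv 0 1 1 * w * hd hk0 0 1 * (tv 0 1 1 * w)⁻¹ = tv 0 1 (1 - l) * hd hk0 (0 - 1) 0 := by
    calc _ = tv 0 1 1 * (w * hd hk0 0 1 * w⁻¹) * (tv 0 1 1)⁻¹ := by group
      _ = tv 0 1 1 * (hd hk0 (0 - 1) 0 * tv 0 1 (-1) * (hd hk0 (0 - 1) 0)⁻¹) *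
          hd hk0 (0 - 1) 0 := by rw [e1, hA.neg]; group
      _ = _ := by rw [hl, ← hA]; congr 2; ring
  have m1 := H.mul_mem (H.mul_mem h2 h1) (H.inv_mem h2)
  rw [e2] at m1
  have m2 := H.mul_mem (H.mul_mem (H.mul_mem h1 m1) (H.inv_mem h1)) (H.inv_mem m1)
  have e3 : hd hk0 (0 : Fin (n + 2)) 1 * (tv 0 1 (1 - l) * hd hk0 (0 - 1) 0) * (hd hk0 0 1)⁻¹ *
      (tv 0 1 (1 - l) * hd hk0 (0 - 1) 0)⁻¹ = tv 0 1 ((k ^ 2 - 1) * (1 - l)) := by
    have hc := (hd_comm hk0 (0 : Fin (n + 2)) 1 (0 - 1) 0).eq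
    have hh' := hh (1 - l)
    rw [sub_mul, one_mul, sub_eq_add_neg (k ^ 2 * _), hA, hA.neg, ← hh']
    generalize hd hk0 (0 : Fin (n + 2)) 1 = a at *
    generalize hd hk0 (0 - 1 : Fin (n + 2)) 0 = b at *
    calc _ = (a * tv 0 1 (1 - l) * a⁻¹) * (a * b * a⁻¹ * b⁻¹) * (tv 0 1 (1 - l))⁻¹ := by group
      _ = _ := by rw [hc]; group
  rw [e3] at m2
  let A : AddSubgroup K :=
    { carrier := {t | tv 0 1 t ∈ H}
      zero_mem' := by simp [hA.zero]
      add_mem' := fun {a b} ha hb => by simpa [hA a b] using H.mul_mem ha hb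
      neg_mem' := fun {a} ha => by simpa [hA.neg] using ha }
  have hx : ∀ t, tv 0 1 t ∈ H := span_sq (mul_ne_zero (sub_ne_zero.2 hk2)
    (sub_ne_zero.2 hl1.symm)) A (fun y => by
      by_cases hy : y = 0
      · subst hy; simp
      obtain ⟨m, rfl⟩ := hk y hy
      have := cj_model hh ((k ^ 2 - 1) * (1 - l)) m
      change tv 0 1 _ ∈ H
      rw [← pow_mul, mul_comm m, pow_mul, ← this, cj]
      exact H.mul_mem (H.mul_mem (H.pow_mem h1 _) m2) (H.inv_mem (H.pow_mem h1 _)))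
  exact top_of_w hw H (by simpa using H.mul_mem (H.inv_mem (hx 1)) h2) hx

omit hw in
/-- `SL_2(K)`, `|K| ≥ 4`, is two-generated. -/
theorem exists_pair_SL_two [Finite K] (hK : 4 ≤ Nat.card K) :
    ∃ a b : Matrix.SpecialLinearGroup (Fin 2) K, Subgroup.closure {a, b} = ⊤ := by
  obtain ⟨k, hk0, hk, ho⟩ := exists_prim K
  have hk2 : k ^ 2 ≠ 1 := fun h => by
    have := Nat.le_of_dvd two_pos (orderOf_dvd_of_pow_eq_one h); omega
  let w : Matrix.SpecialLinearGroup (Fin 2) K := ⟨!![0, 1; -1, 0], by simp [Matrix.det_fin_two]⟩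
  refine ⟨hd hk0 0 1, tv 0 1 1 * w, top_of_hw (n := 0) (w := w) ?_ hk0 hk hk2 _
    (Subgroup.subset_closure (by simp)) (Subgroup.subset_closure (by simp))⟩
  ext i j; fin_cases i <;> fin_cases j <;> simp [w]

end H77.Pres
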